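import Mathlib.RepresentationTheory.Subrepresentation
import Mathlib.LinearAlgebra.Eigenspace.Triangularizable
import Mathlib.GroupTheory.Index
import Mathlib.RingTheory.Artinian.Module
import Mathlib.Analysis.Complex.Polynomial.Basic

/-!
# Common eigenvectors and spans of translates
-/

set_option autoImplicit false

namespace CfsgLib.Frobenius

variable {G V : Type*} [Group G] [AddCommGroup V] [Module ℂ V] [FiniteDimensional ℂ V]
  (ρ : Representation ℂ G V)

/-- A commutative subgroup has a common eigenvector in every non-zero finite-dimensional complex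
representation. -/
theorem exists_common_eigenvector (A : Subgroup G) (hA : ∀ a ∈ A, ∀ b ∈ A, a * b = b * a)
    [Nontrivial V] : ∃ v : V, v ≠ 0 ∧ ∀ a ∈ A, ∃ c : ℂ, ρ a v = c • v := by
  obtain ⟨W, ⟨hW0, hWst⟩, hmin⟩ := (wellFounded_lt (α := Submodule ℂ V)).has_min
    {W : Submodule ℂ V | W ≠ ⊥ ∧ ∀ a ∈ A, ∀ w ∈ W, ρ a w ∈ W}
    ⟨⊤, top_ne_bot, fun _ _ _ _ => trivial⟩
  obtain ⟨w, hw, hw0⟩ := W.ne_bot_iff.1 hW0
  refine ⟨w, hw0, fun a ha => ?_⟩
  have : Nontrivial W := Submodule.nontrivial_iff_ne_bot.2 hW0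
  obtain ⟨c, hc⟩ := Module.End.exists_eigenvalue ((ρ a).restrict (hWst a ha))
  obtain ⟨u, hu, hu0⟩ := (Submodule.ne_bot_iff _).1 hc
  let E : Submodule ℂ V := W ⊓ Module.End.eigenspace (ρ a) c
  have hE : E ∈ {W : Submodule ℂ V | W ≠ ⊥ ∧ ∀ a ∈ A, ∀ w ∈ W, ρ a w ∈ W} := by
    refine ⟨(Submodule.ne_bot_iff _).2 ⟨u, ⟨u.2, ?_⟩, fun h => hu0 (Subtype.ext h)⟩, ?_⟩
    · exact Module.End.mem_eigenspace_iff.2
        (congrArg Subtype.val (Module.End.mem_eigenspace_iff.1 hu))
    · rintro b hb x ⟨hxW, hxE⟩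
      refine ⟨hWst b hb x hxW, Module.End.mem_eigenspace_iff.2 ?_⟩
      rw [show ρ a (ρ b x) = ρ b (ρ a x) by
        rw [← Module.End.mul_apply, ← map_mul, hA a ha b hb, map_mul, Module.End.mul_apply],
        Module.End.mem_eigenspace_iff.1 hxE, map_smul]
  have hEW : E = W := by
    by_contra h
    exact hmin E hE (lt_of_le_of_ne inf_le_left h)
  have hwE : w ∈ E := hEW.symm ▸ hw
  exact ⟨c, Module.End.mem_eigenspace_iff.1 hwE.2⟩

omit [FiniteDimensional ℂ V] in
/-- If `v` spans a line stable under `A`, the translates of `v` by a transversal of `A` span a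
subrepresentation. -/
theorem span_transversal_stable (A : Subgroup G) (v : V) (hv : ∀ a ∈ A, ∃ c : ℂ, ρ a v = c • v)
    (g : G) {x : V} (hx : x ∈ Submodule.span ℂ (Set.range fun q : G ⧸ A => ρ q.out v)) :
    ρ g x ∈ Submodule.span ℂ (Set.range fun q : G ⧸ A => ρ q.out v) := by
  induction hx using Submodule.span_induction with
  | mem y hy =>
    obtain ⟨q, rfl⟩ := hy
    obtain ⟨a, ha⟩ := QuotientGroup.mk_out_eq_mul A (g * q.out)
    obtain ⟨c, hc⟩ := hv (a : G)⁻¹ (A.inv_mem a.2)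
    have e : ρ g (ρ q.out v) = c • ρ (((g * q.out : G) : G ⧸ A)).out v := by
      rw [← map_smul, ← hc, ha, ← Module.End.mul_apply, ← Module.End.mul_apply, ← map_mul,
        ← map_mul, mul_inv_cancel_right]
    rw [e]
    exact Submodule.smul_mem _ _ (Submodule.subset_span ⟨_, rfl⟩)
  | zero => simp
  | add y z _ _ hy hz => rw [map_add]; exact Submodule.add_mem _ hy hz
  | smul r y _ hy => rw [map_smul]; exact Submodule.smul_mem _ _ hy

end CfsgLib.Frobenius
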