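import Cfsg.Agent.Lib.Hall.Solvability
import Cfsg.Agent.Lib.PermGroups.PrimeDegree
import Mathlib.FieldTheory.Finite.Basic
import Mathlib.GroupTheory.Sylow
import Mathlib.LinearAlgebra.Matrix.GeneralLinearGroup.Defs

/-!
# Coprime linear groups with orbits of prime power size: block systems and dimension two
-/

set_option autoImplicit false
set_option linter.unusedSectionVars false
set_option linter.style.haveILetI false

universe u

namespace CfsgLib.Frobenius.PPower

open Subgroup

variable {V : Type u} [AddCommGroup V] [Finite V] {H : Type u} [Group H] [Finite H]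
  (ρ : H →* AddMonoid.End V)

/-- The stabiliser of a vector. -/
def stab (v : V) : Subgroup H where
  carrier := {h | ρ h v = v}
  one_mem' := by simp
  mul_mem' := by
    intro a b ha hb
    show ρ (a * b) v = v
    rw [map_mul]
    show ρ a (ρ b v) = v
    rw [hb, ha]
  inv_mem' := by
    intro a ha
    show ρ a⁻¹ v = v
    conv_lhs => rw [← (ha : ρ a v = v)]
    show (ρ a⁻¹ * ρ a) v = v
    rw [← map_mul, inv_mul_cancel, map_one]
    rfl

theorem mem_stab {v : V} {h : H} : h ∈ stab ρ v ↔ ρ h v = v := Iff.rfl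

theorem mul_apply (a b : H) (v : V) : ρ (a * b) v = ρ a (ρ b v) := by
  rw [map_mul]; rfl

theorem one_apply (v : V) : ρ 1 v = v := by rw [map_one]; rfl

theorem inv_apply (a : H) (v : V) : ρ a⁻¹ (ρ a v) = v := by
  rw [← mul_apply, inv_mul_cancel, one_apply]

theorem apply_inv (a : H) (v : V) : ρ a (ρ a⁻¹ v) = v := by
  rw [← mul_apply, mul_inv_cancel, one_apply]

theorem apply_injective (a : H) : Function.Injective (ρ a) :=
  fun x y h => by rw [← inv_apply ρ a x, h, inv_apply]

/-- All orbits have `p`-power size. -/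
def PPow (p : ℕ) : Prop := ∀ v : V, ∃ a : ℕ, (stab ρ v).index = p ^ a

/-- The invariant subgroups of a subgroup `P` are trivial. -/
def Irred (P : Subgroup H) : Prop :=
  ∀ W : AddSubgroup V, (∀ g ∈ P, ∀ w ∈ W, ρ g w ∈ W) → W = ⊥ ∨ W = ⊤

variable {ρ}

/-- A Sylow `p`-subgroup is transitive on each orbit. -/
theorem exists_mem_sylow {p : ℕ} [Fact p.Prime] (hpp : PPow ρ p) (P : Sylow p H) (h : H) (v : V) :
    ∃ g ∈ (P : Subgroup H), ρ h v = ρ g v := by
  obtain ⟨a, ha⟩ := hpp v
  have hcop : (P : Subgroup H).index.Coprime (stab ρ v).index := by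
    rw [ha]
    exact (((Fact.out : p.Prime).coprime_iff_not_dvd.mpr P.not_dvd_index).pow_left a).symm
  obtain ⟨g, hg, s, hs, rfl⟩ := CfsgLib.Hall.exists_mul_of_coprime_index hcop h
  exact ⟨g, hg, by rw [mul_apply, (hs : ρ s v = v)]⟩

/-- An invariant subgroup of a Sylow `p`-subgroup is invariant. -/
theorem invariant_of_sylow {p : ℕ} [Fact p.Prime] (hpp : PPow ρ p) (P : Sylow p H) {W : AddSubgroup V}
    (hW : ∀ g ∈ (P : Subgroup H), ∀ w ∈ W, ρ g w ∈ W) (h : H) {w : V} (hw : w ∈ W) : ρ h w ∈ W := by
  obtain ⟨g, hg, hgw⟩ := exists_mem_sylow hpp P h w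
  rw [hgw]; exact hW g hg w hw

theorem sum_apply_mem {ι : Type*} (s : Finset ι) {W : AddSubgroup V} (f : ι → V)
    (h : ∀ i ∈ s, f i ∈ W) : ∑ i ∈ s, f i ∈ W := W.sum_mem h

/-- An injection of a perfect group into affine maps is trivial. -/
theorem eq_id_of_affine {p : ℕ} [Fact p.Prime] (hperf : commutator H = ⊤)
    (σ : H → ZMod p → ZMod p) (hmul : ∀ a b i, σ (a * b) i = σ a (σ b i)) (h1 : ∀ i, σ 1 i = i)
    (haff : ∀ h, ∃ u v : ZMod p, ∀ j, σ h j = u * j + v) (h : H) (i : ZMod p) : σ h i = i := by
  letI : MulAction H (ZMod p) := { smul := σ, one_smul := h1, mul_smul := hmul }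
  let f := MulAction.toPermHom H (ZMod p)
  haveI : Group.IsSolvable f.range := by
    letI : MulAction f.range (ZMod p) := MulAction.compHom (ZMod p) f.range.subtype
    haveI : FaithfulSMul f.range (ZMod p) :=
      ⟨fun {a b} hab => Subtype.ext (Equiv.ext hab)⟩
    refine CfsgLib.PermGroups.isSolvable_of_affine (p := p) (α := ZMod p) (Equiv.refl _) ?_
    rintro ⟨_, g, rfl⟩
    obtain ⟨u, v, huv⟩ := haff g
    exact ⟨u, v, huv⟩
  have htop : commutator f.range = ⊤ := by
    have := congrArg (Subgroup.map f.rangeRestrict) hperf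
    rw [_root_.commutator_def, Subgroup.map_commutator,
      Subgroup.map_top_of_surjective _ f.rangeRestrict_surjective] at this
    rwa [_root_.commutator_def]
  rcases subsingleton_or_nontrivial f.range with hs | hn
  · exact Equiv.congr_fun (congrArg Subtype.val (hs.elim (f.rangeRestrict h) 1)) i
  · exact absurd htop (Group.IsSolvable.commutator_lt_top_of_nontrivial _).ne

/-- A perfect group with orbits of `p`-power size has no system of `p` blocks on which a Sylow
`p`-subgroup acts by translations. -/
theorem no_blocks {p : ℕ} [Fact p.Prime] (hpp : PPow ρ p) (hperf : commutator H = ⊤) (P : Sylow p H)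
    (hirr : Irred ρ (P : Subgroup H)) (W : ZMod p → AddSubgroup V) (hne : ∀ i, W i ≠ ⊥)
    (hsup : ∀ v : V, ∃ f : ZMod p → V, (∀ i, f i ∈ W i) ∧ ∑ i, f i = v)
    (huniq : ∀ f : ZMod p → V, (∀ i, f i ∈ W i) → ∑ i, f i = 0 → ∀ i, f i = 0)
    (htrans : ∀ g ∈ (P : Subgroup H), ∃ c : ZMod p, ∀ i, ∀ w ∈ W i, ρ g w ∈ W (i + c))
    (hpne : W 0 ≠ ⊤) : False := by
  classical
  have hp := (Fact.out : p.Prime)
  have hex : ∀ i, ∃ w ∈ W i, w ≠ 0 := fun i =>
    ((W i).bot_or_exists_ne_zero).resolve_left (hne i)
  choose e he he0 using hex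
  have hdisj : ∀ i j, ∀ w : V, w ∈ W i → w ∈ W j → w ≠ 0 → i = j := by
    intro i j w hi hj hw
    by_contra hij
    have := huniq (fun k => if k = i then w else if k = j then -w else 0) (fun k => by
      show (if k = i then w else if k = j then -w else 0) ∈ W k
      split_ifs with h h'
      · exact h ▸ hi
      · exact h' ▸ (W j).neg_mem hj
      · exact (W k).zero_mem) ?_ i
    · exact hw (by simpa using this)
    rw [Finset.sum_eq_add i j hij (fun k _ hk => by simp [hk.1, hk.2]) (by simp) (by simp)]
    simp [Ne.symm hij]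
  -- a block goes to a block
  have hmove : ∀ (h : H) i, ∃ j, ∀ w ∈ W i, ρ h w ∈ W j := by
    intro h i
    obtain ⟨g, hg, hgw⟩ := exists_mem_sylow hpp P h (e i)
    obtain ⟨c, hc⟩ := htrans g hg
    refine ⟨i + c, fun w hw => ?_⟩
    by_contra hwn
    obtain ⟨g', hg', hgw'⟩ := exists_mem_sylow hpp P h w
    obtain ⟨c', hc'⟩ := htrans g' hg'
    obtain ⟨g'', hg'', hgw''⟩ := exists_mem_sylow hpp P h (e i + w)
    obtain ⟨c'', hc''⟩ := htrans g'' hg''
    have h1 : ρ h (e i) ∈ W (i + c) := hgw ▸ hc i _ (he i)
    have h2 : ρ h w ∈ W (i + c') := hgw' ▸ hc' i _ hw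
    have h3 : ρ h (e i) + ρ h w ∈ W (i + c'') := by
      rw [← map_add, hgw'']; exact hc'' i _ ((W i).add_mem (he i) hw)
    have hne' : i + c' ≠ i + c := fun h => hwn (h ▸ h2)
    by_cases hcc : i + c'' = i + c
    · have := (W (i + c)).sub_mem (hcc ▸ h3) h1
      rw [add_sub_cancel_left] at this
      exact hwn this
    by_cases hcc' : i + c'' = i + c'
    · have := (W (i + c')).sub_mem (hcc' ▸ h3) h2
      rw [add_sub_cancel_right] at this
      exact hne' (hdisj _ _ _ this h1 fun h0 => he0 i (apply_injective ρ h (h0.trans (map_zero _).symm)))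
    have := huniq (fun k => if k = i + c then ρ h (e i) else if k = i + c' then ρ h w else
        if k = i + c'' then -(ρ h (e i) + ρ h w) else 0) (fun k => by
      show (if k = i + c then ρ h (e i) else if k = i + c' then ρ h w else
        if k = i + c'' then -(ρ h (e i) + ρ h w) else 0) ∈ W k
      split_ifs with a b d
      · exact a ▸ h1
      · exact b ▸ h2
      · exact d ▸ (W _).neg_mem h3
      · exact (W k).zero_mem) ?_ (i + c)
    · exact he0 i (apply_injective ρ h ((by simpa using this : ρ h (e i) = 0).trans (map_zero _).symm))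
    rw [← Finset.sum_subset (s₁ := {i + c, i + c', i + c''}) (Finset.subset_univ _) (fun k _ hk => by
      simp only [Finset.mem_insert, Finset.mem_singleton, not_or] at hk
      simp [hk.1, hk.2.1, hk.2.2])]
    rw [Finset.sum_insert (by simp [Ne.symm hne', Ne.symm hcc]),
      Finset.sum_pair (Ne.symm hcc')]
    simp [hne', hcc, hcc']
  choose σ hσ using hmove
  have hσeq : ∀ h i j, ρ h (e i) ∈ W j → σ h i = j := fun h i j hj =>
    hdisj _ _ _ (hσ h i _ (he i)) hj fun h0 => he0 i (apply_injective ρ h (h0.trans (map_zero _).symm))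
  have hmul : ∀ a b i, σ (a * b) i = σ a (σ b i) := fun a b i => hσeq _ _ _ (by
    rw [mul_apply]; exact hσ a _ _ (hσ b i _ (he i)))
  have h1 : ∀ i, σ 1 i = i := fun i => hσeq _ _ _ (by rw [one_apply]; exact he i)
  have hinj : ∀ h, Function.Injective (σ h) := fun h a b hab => by
    have := congrArg (σ h⁻¹) hab
    rwa [← hmul, ← hmul, inv_mul_cancel, h1, h1] at this
  -- the block permutations are affine
  have haff : ∀ h, ∃ u v : ZMod p, ∀ j, σ h j = u * j + v := by
    intro h
    rcases hp.eq_two_or_odd' with rfl | hodd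
    · refine ⟨1, σ h 0, fun j => ?_⟩
      have key : ∀ A B : ZMod 2, A ≠ B → A = 1 * 1 + B := by
        intro A B hAB
        rw [one_mul]
        fin_cases A <;> fin_cases B <;> first | rfl | exact absurd rfl hAB
      fin_cases j
      · show σ h 0 = 1 * 0 + σ h 0
        rw [mul_zero, zero_add]
      · exact key _ _ fun hh => one_ne_zero (hinj h hh)
    have hstep : ∀ i, σ h (i + 1) - σ h i = 1 ∨ σ h (i + 1) - σ h i = -1 := by
      intro i
      have hii : i ≠ i + 1 := fun hh => one_ne_zero (add_left_cancel (hh.symm.trans (add_zero i).symm))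
      obtain ⟨g, hg, hgw⟩ := exists_mem_sylow hpp P h (e i + e (i + 1))
      obtain ⟨c, hc⟩ := htrans g hg
      set x := σ h i
      set y := σ h (i + 1)
      have hxy : x ≠ y := fun hh => hii (hinj h hh)
      have hz : i + c ≠ i + 1 + c := fun hh => hii (add_right_cancel hh)
      have hx0 : ρ h (e i) ≠ 0 := fun h0 => he0 i (apply_injective ρ h (h0.trans (map_zero _).symm))
      have hy0 : ρ h (e (i + 1)) ≠ 0 := fun h0 =>
        he0 _ (apply_injective ρ h (h0.trans (map_zero _).symm))
      have key := huniq (fun k => ((if k = x then ρ h (e i) else 0) + if k = y then ρ h (e (i + 1)) else 0) -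
          ((if k = i + c then ρ g (e i) else 0) + if k = i + 1 + c then ρ g (e (i + 1)) else 0))
        (fun k => by
          refine (W k).sub_mem ((W k).add_mem ?_ ?_) ((W k).add_mem ?_ ?_) <;> split_ifs with hk <;>
            first | exact (W k).zero_mem | skip
          · exact hk ▸ hσ h i _ (he i)
          · exact hk ▸ hσ h _ _ (he _)
          · exact hk ▸ hc i _ (he i)
          · exact hk ▸ hc _ _ (he _))
        (by
          simp only [Finset.sum_sub_distrib, Finset.sum_add_distrib, Finset.sum_ite_eq',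
            Finset.mem_univ, if_true]
          rw [← map_add, ← map_add, hgw, sub_self])
      have hxmem : x = i + c ∨ x = i + 1 + c := by
        by_contra hcon
        push Not at hcon
        have := key x
        simp [hxy, hcon.1, hcon.2] at this
        exact hx0 this
      have hymem : y = i + c ∨ y = i + 1 + c := by
        by_contra hcon
        push Not at hcon
        have := key y
        simp [Ne.symm hxy, hcon.1, hcon.2] at this
        exact hy0 this
      rcases hxmem with a | a <;> rcases hymem with b | b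
      · exact absurd (a.trans b.symm) hxy
      · left; rw [a, b]; ring
      · right; rw [a, b]; ring
      · exact absurd (a.trans b.symm) hxy
    refine ⟨σ h 1 - σ h 0, σ h 0, ?_⟩
    have h2 : (2 : ZMod p) ≠ 0 := by
      intro h2
      have h3 : ((2 : ℕ) : ZMod p) = 0 := by exact_mod_cast h2
      rw [ZMod.natCast_eq_zero_iff] at h3
      exact (by obtain ⟨k, hk⟩ := hodd; omega : p ≠ 2) ((Nat.prime_dvd_prime_iff_eq hp Nat.prime_two).mp h3)
    have hconst : ∀ i, σ h (i + 1 + 1) - σ h (i + 1) = σ h (i + 1) - σ h i := by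
      intro i
      rcases hstep i with a | a <;> rcases hstep (i + 1) with b | b
      · rw [a, b]
      · exact absurd (hinj h (show σ h (i + 1 + 1) = σ h i by linear_combination a + b))
          (fun hh => h2 (by linear_combination hh))
      · exact absurd (hinj h (show σ h (i + 1 + 1) = σ h i by linear_combination a + b))
          (fun hh => h2 (by linear_combination hh))
      · rw [a, b]
    intro j
    obtain ⟨n, rfl⟩ := ZMod.natCast_zmod_surjective (n := p) j
    have hd : ∀ n : ℕ, σ h ((n : ZMod p) + 1) - σ h n = σ h 1 - σ h 0 := by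
      intro n
      induction n with
      | zero => simp
      | succ n ih => rw [← ih, Nat.cast_succ]; exact hconst _
    induction n with
    | zero => simp
    | succ n ih => rw [Nat.cast_succ]; linear_combination hd n + ih
  have hfix := eq_id_of_affine hperf σ hmul h1 haff
  rcases hirr (W 0) (fun g _ w hw => by have := hσ g 0 w hw; rwa [hfix g 0] at this) with h | h
  · exact hne 0 h
  · exact hpne h

/-- A coprime element acting trivially on an invariant subgroup and on its quotient is trivial. -/
theorem eq_id_of_trivial_step {h : H} (hcop : (Nat.card H).Coprime (Nat.card V)) {v : V}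
    (hw : ρ h (ρ h v - v) = ρ h v - v) : ρ h v = v := by
  have hk : ∀ k : ℕ, ρ (h ^ k) v = v + k • (ρ h v - v) := by
    intro k
    induction k with
    | zero => simp [one_apply]
    | succ k ih =>
      rw [pow_succ', mul_apply, ih, map_add, map_nsmul, hw, succ_nsmul]
      abel
  have h1 := hk (orderOf h)
  rw [pow_orderOf_eq_one, one_apply, left_eq_add] at h1
  have hd := addOrderOf_dvd_of_nsmul_eq_zero h1
  have hd' := addOrderOf_dvd_natCard (ρ h v - v)
  have := Nat.eq_one_of_dvd_coprimes hcop (hd.trans (orderOf_dvd_natCard h)) hd'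
  rw [AddMonoid.addOrderOf_eq_one_iff, sub_eq_zero] at this
  exact this

/-- A perfect group acting coprimely on a plane, with a Sylow subgroup transitive on each orbit, is
that Sylow subgroup. -/
theorem eq_top_of_plane {p q : ℕ} [Fact p.Prime] [Fact q.Prime] (hinj : Function.Injective ρ)
    (hcop : (Nat.card H).Coprime q) (hq : ∀ v : V, q • v = 0) (hpp : PPow ρ p)
    (hperf : commutator H = ⊤) (P : Sylow p H) (v w : V)
    (hspan : ∀ u : V, ∃ a b : ℕ, u = a • v + b • w) : (P : Subgroup H) = ⊤ := by
  classical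
  rw [eq_top_iff]
  intro h _
  obtain ⟨g, hg, hgv⟩ := exists_mem_sylow hpp P h v
  suffices hs : g⁻¹ * h = 1 by rwa [← inv_mul_eq_one.mp hs]
  set k := g⁻¹ * h with hk
  have hkv : ρ k v = v := by rw [hk, mul_apply, hgv, inv_apply]
  letI : Module (ZMod q) V := AddCommGroup.zmodModule (fun x => hq x)
  have hspan' : ∀ u : V, ∃ a b : ZMod q, u = a • v + b • w := by
    intro u
    obtain ⟨a, b, hu⟩ := hspan u
    exact ⟨a, b, by rw [hu, Nat.cast_smul_eq_nsmul, Nat.cast_smul_eq_nsmul]⟩
  have hlin : ∀ (x : H) (a : ZMod q) (u : V), ρ x (a • u) = a • ρ x u := fun x a u =>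
    ((ρ x).toZModLinearMap q).map_smul a u
  suffices hkw : ρ k w = w by
    refine hinj (DFunLike.ext _ _ fun u => ?_)
    obtain ⟨a, b, hu⟩ := hspan u
    rw [one_apply, hu, map_add, map_nsmul, map_nsmul, hkv, hkw]
  by_cases hdep : ∃ c : ZMod q, w = c • v
  · obtain ⟨c, rfl⟩ := hdep
    rw [hlin, hkv]
  have hind : ∀ a b : ZMod q, a • v + b • w = 0 → v ≠ 0 → a = 0 ∧ b = 0 := by
    intro a b hab hv0
    by_cases hb : b = 0
    · subst hb
      rw [zero_smul, add_zero] at hab
      refine ⟨by_contra fun ha => hv0 ?_, rfl⟩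
      rw [← one_smul (ZMod q) v, ← inv_mul_cancel₀ ha, mul_smul, hab, smul_zero]
    · exfalso
      apply hdep
      refine ⟨-(b⁻¹ * a), ?_⟩
      have := congrArg (fun z => b⁻¹ • z) hab
      simp only [smul_add, smul_smul, inv_mul_cancel₀ hb, one_smul, smul_zero] at this
      rw [neg_smul]
      exact eq_neg_of_add_eq_zero_right this
  by_cases hv0 : v = 0
  · -- then `V` is cyclic and its automorphisms commute
    have hspan0 : ∀ u : V, ∃ b : ZMod q, u = b • w := fun u => by
      obtain ⟨a, b, hu⟩ := hspan' u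
      exact ⟨b, by rw [hu, hv0, smul_zero, zero_add]⟩
    choose d hd using fun x : H => hspan0 (ρ x w)
    have hc : ∀ x y : H, x * y = y * x := fun x y => hinj (DFunLike.ext _ _ fun u => by
      obtain ⟨a, b, hu⟩ := hspan' u
      rw [hu, hv0, smul_zero, zero_add, mul_apply, mul_apply, hlin, hlin, hlin, hlin, hd, hd,
        hlin, hlin, hd, hd, smul_comm (d y) (d x)])
    have hbot : commutator H = ⊥ := by
      rw [_root_.commutator_def, Subgroup.commutator_eq_bot_iff_le_centralizer]
      intro x _
      rw [Subgroup.mem_centralizer_iff]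
      exact fun y _ => hc y x
    have : k ∈ (⊥ : Subgroup H) := hbot ▸ hperf.symm ▸ Subgroup.mem_top k
    rw [Subgroup.mem_bot] at this
    rw [this, one_apply]
  choose a b hab using fun x : H => hspan' (ρ x v)
  choose c d hcd using fun x : H => hspan' (ρ x w)
  let M : H → Matrix (Fin 2) (Fin 2) (ZMod q) := fun x => !![a x, c x; b x, d x]
  have huni : ∀ {a₁ b₁ a₂ b₂ : ZMod q}, a₁ • v + b₁ • w = a₂ • v + b₂ • w → a₁ = a₂ ∧ b₁ = b₂ := by
    intro a₁ b₁ a₂ b₂ h
    have := hind (a₁ - a₂) (b₁ - b₂) (by
      rw [sub_smul, sub_smul]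
      rw [← sub_eq_zero] at h
      rw [← h]; abel) hv0
    exact ⟨sub_eq_zero.mp this.1, sub_eq_zero.mp this.2⟩
  have h1v : a 1 = 1 ∧ b 1 = 0 := huni (by rw [← hab, one_apply, one_smul, zero_smul, add_zero])
  have h1w : c 1 = 0 ∧ d 1 = 1 := huni (by rw [← hcd, one_apply, one_smul, zero_smul, zero_add])
  have hM1 : M 1 = 1 := by simp [M, h1v, h1w, Matrix.one_fin_two]
  have hMm : ∀ x y, M (x * y) = M x * M y := by
    intro x y
    have e1 : a (x * y) = a x * a y + c x * b y ∧ b (x * y) = b x * a y + d x * b y := huni (by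
      rw [← hab, mul_apply, hab y, map_add, hlin, hlin, hab x, hcd x]
      simp only [smul_add, smul_smul, add_smul, mul_comm]
      abel)
    have e2 : c (x * y) = a x * c y + c x * d y ∧ d (x * y) = b x * c y + d x * d y := huni (by
      rw [← hcd, mul_apply, hcd y, map_add, hlin, hlin, hab x, hcd x]
      simp only [smul_add, smul_smul, add_smul, mul_comm]
      abel)
    simp [M, Matrix.mul_fin_two, e1, e2]
  let f : H →* (ZMod q) :=
    { toFun := fun x => (M x).det
      map_one' := by rw [hM1, Matrix.det_one]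
      map_mul' := fun x y => by rw [hMm, Matrix.det_mul] }
  have hdet : (M k).det = 1 := by
    have hker : commutator H ≤ f.toHomUnits.ker := Abelianization.commutator_subset_ker _
    exact congrArg Units.val (show f.toHomUnits k = 1 from hker (hperf.symm ▸ Subgroup.mem_top k))
  have hkab : a k = 1 ∧ b k = 0 := huni (by rw [← hab, hkv, one_smul, zero_smul, add_zero])
  have hdk : d k = 1 := by simpa [M, Matrix.det_fin_two, hkab] using hdet
  have hkw : ρ k w - w = c k • v := by rw [hcd k, hdk, one_smul, add_sub_cancel_right]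
  refine eq_id_of_trivial_step ?_ (by rw [hkw, hlin, hkv])
  refine Nat.coprime_of_dvd fun r hr hr1 hr2 => ?_
  have := Fact.mk hr
  obtain ⟨u, hu⟩ := exists_prime_addOrderOf_dvd_card' r hr2
  have h := addOrderOf_dvd_of_nsmul_eq_zero (hq u)
  rw [hu] at h
  exact hr.not_dvd_one (by
    have := (Nat.prime_dvd_prime_iff_eq hr Fact.out).mp h
    subst this
    exact hcop ▸ Nat.dvd_gcd hr1 dvd_rfl)

end CfsgLib.Frobenius.PPower
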