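import Cfsg.Agent.Lib.Frobenius.PPowerQuaternion
import Cfsg.Agent.Lib.Hall2.CyclicRegular
import Cfsg.Agent.Lib.TwoGroups.RankOne
import Cfsg.Agent.Lib.TwoGroups.CentralizerPrep
import Cfsg.Agent.Lib.SolvableStructure.MinimalNormal
import Cfsg.Agent.Lib.TwoGroups.NormalAbelian
import Cfsg.Agent.Lib.Involutions.ThompsonTransfer
import Cfsg.Agent.S0519
import Cfsg.Agent.S0126
import Cfsg.Agent.S0675
import Mathlib.GroupTheory.Transfer
import Mathlib.GroupTheory.GroupAction.MultipleTransitivity

/-!
# A coprime group of automorphisms of an abelian group with orbits of `p`-power size is solvable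
-/

set_option autoImplicit false
set_option linter.unusedSectionVars false
set_option linter.style.haveILetI false
set_option maxHeartbeats 1000000

universe u

namespace CfsgLib.Frobenius.PPower

open Subgroup

section
variable {V : Type u} [AddCommGroup V] [Finite V] {H : Type u} [Group H] [Finite H]
  {ρ : H →* AddMonoid.End V}

/-- In an irreducible Sylow subgroup a non-trivial central element moves every non-zero vector. -/
theorem central_fpf (hinj : Function.Injective ρ) {P : Subgroup H} (hirr : Irred ρ P) {z : H}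
    (hz : ∀ g ∈ P, g * z = z * g) (hz1 : z ≠ 1) {v : V} (hv : ρ z v = v) : v = 0 := by
  rcases hirr (AddMonoidHom.ker ((ρ z - 1 : AddMonoid.End V) : V →+ V)) (fun g hg w hw => by
      have e : ρ z w = w := sub_eq_zero.mp hw
      show ρ z (ρ g w) - ρ g w = 0
      rw [← mul_apply, ← hz g hg, mul_apply, e, sub_self]) with h | h
  · exact AddSubgroup.mem_bot.mp (h ▸ (show v ∈ AddMonoidHom.ker
      ((ρ z - 1 : AddMonoid.End V) : V →+ V) from sub_eq_zero.mpr hv))
  · refine absurd (hinj (DFunLike.ext _ _ fun w => ?_)) hz1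
    rw [one_apply]
    exact sub_eq_zero.mp (h.ge (AddSubgroup.mem_top w) : ρ z w - w = 0)

/-- A central involution of an irreducible Sylow subgroup is central: it inverts every vector. -/
theorem apply_eq_neg (hinj : Function.Injective ρ) {P : Subgroup H} (hirr : Irred ρ P) {z : H}
    (hz : ∀ g ∈ P, g * z = z * g) (hz2 : orderOf z = 2) (v : V) : ρ z v = -v := by
  refine eq_neg_of_add_eq_zero_left (central_fpf hinj hirr hz (fun h => by simp [h] at hz2) ?_)
  rw [map_add, ← mul_apply, show z * z = 1 by rw [← pow_two, ← hz2, pow_orderOf_eq_one], one_apply,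
    add_comm]

theorem commute_of_apply_eq_neg (hinj : Function.Injective ρ) {z : H} (hz : ∀ v, ρ z v = -v) (h : H) :
    h * z = z * h := hinj (DFunLike.ext _ _ fun v => by rw [mul_apply, mul_apply, hz, hz, map_neg])

/-- A perfect group has no non-trivial central element in an abelian Sylow subgroup. -/
theorem eq_one_of_central {p : ℕ} [Fact p.Prime] (hperf : commutator H = ⊤) (P : Sylow p H)
    (hP : IsMulCommutative (P : Subgroup H)) {z : H} (hz : z ∈ (P : Subgroup H))
    (hzc : ∀ h : H, h * z = z * h) : z = 1 := by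
  letI : CommGroup (P : Subgroup H) :=
    { (inferInstance : Group (P : Subgroup H)) with mul_comm := hP.is_comm.comm }
  let φ : H →* (P : Subgroup H) := MonoidHom.transfer (MonoidHom.id (P : Subgroup H))
  have hker : φ.ker = ⊤ := top_le_iff.mp (hperf ▸ Abelianization.commutator_subset_ker φ)
  have key : ∀ (k : ℕ) (g₀ : H), g₀⁻¹ * z ^ k * g₀ ∈ (P : Subgroup H) → g₀⁻¹ * z ^ k * g₀ = z ^ k := by
    intro k g₀ _
    rw [mul_assoc, ← ((show Commute g₀ z from hzc g₀).pow_right k).eq, inv_mul_cancel_left]
  have h := MonoidHom.transfer_eq_pow (MonoidHom.id (P : Subgroup H)) z key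
  rw [show MonoidHom.transfer (MonoidHom.id (P : Subgroup H)) z = 1 from
    MonoidHom.mem_ker.mp (hker.ge (Subgroup.mem_top z))] at h
  have h1 : z ^ (P : Subgroup H).index = 1 := (congrArg Subtype.val h).symm
  obtain ⟨k, hk⟩ := P.2 ⟨z, hz⟩
  have h2 : z ^ p ^ k = 1 := congrArg Subtype.val hk
  exact orderOf_eq_one_iff.mp (Nat.eq_one_of_dvd_coprimes
    (((Fact.out : p.Prime).coprime_iff_not_dvd.mpr P.not_dvd_index).pow_left k)
    (orderOf_dvd_of_pow_eq_one h2) (orderOf_dvd_of_pow_eq_one h1))

/-- A regular cyclic orbit with double transitivity is impossible. -/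
theorem no_cyclic {p q : ℕ} [Fact p.Prime] [Fact q.Prime] [Nontrivial V]
    (hinj : Function.Injective ρ) (hp : p ≠ 2) (hcop : (Nat.card H).Coprime q) (hq : ∀ v : V, q • v = 0)
    (hpp : PPow ρ p) (hperf : commutator H = ⊤) [IsSimpleGroup H] (hns : ¬ Group.IsSolvable H)
    (P : Sylow p H) (hirr : Irred ρ (P : Subgroup H)) (hcyc : IsCyclic (P : Subgroup H)) : False := by
  classical
  obtain ⟨g, hg⟩ := (Subgroup.isCyclic_iff_exists_zpowers_eq_top _).mp hcyc
  have hgP : g ∈ (P : Subgroup H) := hg ▸ Subgroup.mem_zpowers g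
  have hpow : ∀ a ∈ (P : Subgroup H), ∃ k : ℕ, a = g ^ k := by
    intro a ha
    rw [← hg, mem_zpowers_iff_mem_range_orderOf, Finset.mem_image] at ha
    obtain ⟨k, -, rfl⟩ := ha
    exact ⟨k, rfl⟩
  obtain ⟨a, ha⟩ := IsPGroup.iff_orderOf.mp P.2 ⟨g, hgP⟩
  rw [Subgroup.orderOf_mk] at ha
  have ha0 : a ≠ 0 := by
    intro h0
    apply hns
    rw [h0, pow_zero, orderOf_eq_one_iff] at ha
    have htriv : ∀ h : H, h = 1 := fun h => hinj (DFunLike.ext _ _ fun v => by
      obtain ⟨b, hb, hbv⟩ := exists_mem_sylow hpp P h v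
      obtain ⟨k, rfl⟩ := hpow b hb
      rw [hbv, ha, one_pow, one_apply])
    exact Group.isSolvable_of_comm fun x y => by rw [htriv x, htriv y]
  set n := p ^ a with hn
  haveI : NeZero n := ⟨pow_ne_zero _ (Fact.out : p.Prime).ne_zero⟩
  have hgn : orderOf g = n := ha
  have hp3 : 3 ≤ p := by have := (Fact.out : p.Prime).two_le; omega
  have hn3 : 3 ≤ n := hp3.trans (Nat.le_self_pow ha0 p)
  -- semiregularity
  have hsemi : ∀ v : V, v ≠ 0 → ∀ i : ℕ, ρ (g ^ i) v = v → g ^ i = 1 := by
    intro v hv i hi
    by_contra h1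
    refine hv (central_fpf hinj hirr (fun b hb => ?_) h1 hi)
    obtain ⟨k, rfl⟩ := hpow b hb
    rw [← pow_add, ← pow_add, add_comm]
  have hval : ∀ i j : ℕ, (i : ZMod n) = j → g ^ i = g ^ j := fun i j h => by
    rw [pow_eq_pow_iff_modEq, hgn]; exact (ZMod.natCast_eq_natCast_iff _ _ _).mp h
  have hcoord : ∀ v : V, v ≠ 0 → Function.Injective fun k : ZMod n => ρ (g ^ k.val) v := by
    intro v hv i j hij
    have key : ∀ i j : ZMod n, ρ (g ^ i.val) v = ρ (g ^ j.val) v → j.val ≤ i.val → i = j := by
      intro i j hij hle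
      have h2 : ρ (g ^ (i.val - j.val)) v = v := by
        refine apply_injective ρ (g ^ j.val) ?_
        rw [← mul_apply, ← pow_add, Nat.add_sub_cancel' hle, hij]
      have h3 := hsemi v hv _ h2
      rw [← orderOf_dvd_iff_pow_eq_one, hgn] at h3
      have := Nat.eq_zero_of_dvd_of_lt h3 (lt_of_le_of_lt (Nat.sub_le _ _) (ZMod.val_lt i))
      exact ZMod.val_injective n (by omega)
    rcases le_total j.val i.val with h | h
    · exact key i j hij h
    · exact (key j i hij.symm h).symm
  obtain ⟨v, hv⟩ := exists_ne (0 : V)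
  let e : ZMod n → V := fun k => ρ (g ^ k.val) v
  have he : Function.Injective e := hcoord v hv
  have he0 : e 0 = v := by show ρ (g ^ (0 : ZMod n).val) v = v; rw [ZMod.val_zero, pow_zero, one_apply]
  have hge : ∀ (i : ℕ) (k : ZMod n), ρ (g ^ i) (e k) = e (k + i) := by
    intro i k
    show ρ (g ^ i) (ρ (g ^ k.val) v) = ρ (g ^ (k + (i : ZMod n)).val) v
    rw [← mul_apply, ← pow_add, hval (i + k.val) ((k + (i : ZMod n)).val) (by
      push_cast; rw [ZMod.natCast_zmod_val, ZMod.natCast_zmod_val, add_comm])]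
  have hmove : ∀ (h : H) (k : ZMod n), ∃ j, ρ h (e k) = e j := by
    intro h k
    obtain ⟨b, hb, hbv⟩ := exists_mem_sylow hpp P h (e k)
    obtain ⟨i, rfl⟩ := hpow b hb
    exact ⟨k + i, hbv.trans (hge i k)⟩
  choose σ hσ using hmove
  let π : H →* Equiv.Perm (ZMod n) := MonoidHom.mk'
    (fun h =>
      { toFun := σ h
        invFun := σ h⁻¹
        left_inv := fun k => he (by rw [← hσ, ← hσ, inv_apply])
        right_inv := fun k => he (by rw [← hσ, ← hσ, apply_inv]) })
    (fun x y => Equiv.ext fun k => he (by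
      show e (σ (x * y) k) = e (σ x (σ y k))
      rw [← hσ, ← hσ, ← hσ, mul_apply]))
  have hπ : ∀ h k, ρ h (e k) = e (π h k) := hσ
  have hπg : ∀ (i : ℕ) (k : ZMod n), π (g ^ i) k = k + i := fun i k => he (by rw [← hπ, hge])
  have hnt : ∀ i : ℕ, g ^ i ≠ 1 → ∀ k, π (g ^ i) k ≠ k := by
    intro i hi k hk
    have := hπ (g ^ i) k
    rw [hk] at this
    refine hi (hsemi (e k) (fun h => ?_) i this)
    exact hv (by rw [← apply_injective ρ (g ^ k.val) (h.trans (map_zero _).symm)])
  have hg1 : g ≠ 1 := fun h => by rw [h, orderOf_one] at hgn; omega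
  have hπinj : Function.Injective π := by
    rw [← MonoidHom.ker_eq_bot_iff]
    refine (IsSimpleGroup.eq_bot_or_eq_top_of_normal π.ker inferInstance).resolve_right fun h => ?_
    refine hnt 1 (by rwa [pow_one]) 0 ?_
    rw [show π (g ^ 1) = 1 from h.ge (Subgroup.mem_top (g ^ 1))]
    rfl
  have htrans : ∀ a, Equiv.addRight a ∈ π.range := fun a =>
    ⟨g ^ a.val, Equiv.ext fun k => by rw [hπg, ZMod.natCast_zmod_val]; rfl⟩
  -- double transitivity
  have h2t : ∀ i j k l : ZMod n, i ≠ j → k ≠ l → ∃ h : H, π h i = k ∧ π h j = l := by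
    intro i j k l hij hkl
    by_cases ha1 : a = 1
    · haveI : MulAction.IsPretransitive π.range (ZMod n) := ⟨fun x y =>
        ⟨⟨Equiv.addRight (y - x), htrans _⟩, by
          show x + (y - x) = y
          abel⟩⟩
      have hprime : (Fintype.card (ZMod n)).Prime := by
        rw [ZMod.card, hn, ha1, pow_one]; exact Fact.out
      rcases Cfsg.Agent.S0675.result hprime π.range with hsol | h2
      · refine absurd ?_ hns
        haveI := hsol
        exact Group.isSolvable_of_isSolvable_injective (f := π.rangeRestrict)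
          (fun x y h => hπinj (congrArg Subtype.val h))
      · obtain ⟨⟨_, h, rfl⟩, h1, h2'⟩ := MulAction.is_two_pretransitive_iff.mp h2 hij hkl
        exact ⟨h, h1, h2'⟩
    · have ha2 : 2 ≤ a := by omega
      rcases CfsgLib.Hall2.CyclicRegular.doubly_or_invariant (p := p) ha2 (P := π.range) htrans with
        hd | ⟨L, hL, hLtop, hLmem⟩
      · obtain ⟨_, ⟨h, rfl⟩, h1, h2⟩ := hd hij hkl
        exact ⟨h, h1, h2⟩
      · exfalso
        have hinv : ∀ (h : H) (x y : ZMod n), y - x ∈ L → π h y - π h x ∈ L := fun h x y hxy =>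
          (Eq.to_iff (hL (π h) ⟨h, rfl⟩ x y)).mpr hxy
        have hm : ∀ (x y : H) (k : ZMod n), π (x * y) k = π x (π y k) := fun x y k => by
          rw [map_mul]; rfl
        let K : Subgroup H :=
          { carrier := {h | ∀ x, π h x - x ∈ L}
            one_mem' := fun x => by simp
            mul_mem' := fun {s t} hs ht x => by
              rw [hm, show π s (π t x) - x = (π s (π t x) - π t x) + (π t x - x) by ring]
              exact add_mem (hs _) (ht _)
            inv_mem' := fun {s} hs x => by
              have := neg_mem (hs (π s⁻¹ x))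
              rwa [← hm, mul_inv_cancel, map_one, neg_sub] at this }
        have hKn : K.Normal := ⟨fun s hs c x => by
          rw [hm, hm]
          have := hinv c (π c⁻¹ x) (π s (π c⁻¹ x)) (hs _)
          rwa [← hm c c⁻¹, mul_inv_cancel, map_one] at this⟩
        rcases IsSimpleGroup.eq_bot_or_eq_top_of_normal K hKn with hK | hK
        · have hmem : g ^ p ^ (a - 1) ∈ K := fun x => by
            rw [hπg, add_sub_cancel_left]; exact hLmem
          rw [hK, Subgroup.mem_bot, ← orderOf_dvd_iff_pow_eq_one, hgn, hn] at hmem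
          have := Nat.le_of_dvd (pow_pos (Fact.out : p.Prime).pos _) hmem
          have := Nat.pow_lt_pow_right (Fact.out : p.Prime).one_lt (show a - 1 < a by omega)
          omega
        · refine hLtop (top_le_iff.mp fun x _ => ?_)
          have := hK.ge (Subgroup.mem_top (g ^ x.val)) 0
          rwa [hπg, ZMod.natCast_zmod_val, zero_add, sub_zero] at this
  -- the differences form one orbit
  set c := e 1 - e 0 with hcdef
  have h01 : (0 : ZMod n) ≠ 1 := by
    intro h
    have := congrArg ZMod.val h
    haveI h1n : Fact (1 < n) := ⟨by omega⟩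
    rw [ZMod.val_zero, ZMod.val_one] at this
    omega
  have hc : c ≠ 0 := sub_ne_zero.mpr fun h => h01 (he h).symm
  let d : ZMod n → V := fun k => ρ (g ^ k.val) c
  have hdinj : Function.Injective d := hcoord c hc
  have hdiff : ∀ i j, i ≠ j → ∃ k, e j - e i = d k := by
    intro i j hij
    obtain ⟨h, h1, h2⟩ := h2t 0 1 i j h01 hij
    obtain ⟨b, hb, hbv⟩ := exists_mem_sylow hpp P h c
    obtain ⟨k, rfl⟩ := hpow b hb
    refine ⟨(k : ZMod n), ?_⟩
    show e j - e i = ρ (g ^ (k : ZMod n).val) c
    rw [hval (k : ZMod n).val k (by rw [ZMod.natCast_zmod_val]), ← hbv, hcdef, map_sub, hπ, hπ, h1, h2]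
  have hgd : ∀ (i : ℕ) (k : ZMod n), ρ (g ^ i) (d k) = d (k + i) := by
    intro i k
    show ρ (g ^ i) (ρ (g ^ k.val) c) = ρ (g ^ (k + (i : ZMod n)).val) c
    rw [← mul_apply, ← pow_add, hval (i + k.val) ((k + (i : ZMod n)).val) (by
      push_cast; rw [ZMod.natCast_zmod_val, ZMod.natCast_zmod_val, add_comm])]
  -- each translate of the orbit misses one difference
  obtain ⟨x0, hx0⟩ : ∃ x, ∀ m, d x ≠ e m - e 0 := by
    by_contra hcon
    push Not at hcon
    choose f hf using hcon
    have hfinj : Function.Injective f := fun x y h => hdinj (by rw [hf, hf, h])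
    obtain ⟨x, hx⟩ := (Finite.injective_iff_surjective.mp hfinj) 0
    have := hf x
    rw [hx, sub_self] at this
    exact hc (apply_injective ρ (g ^ x.val) (this.trans (map_zero _).symm))
  have hmiss : ∀ k y, y ≠ x0 + k → ∃ m, d y = e m - e k := by
    intro k y hy
    by_contra hcon
    push Not at hcon
    -- move back to the translate at zero
    have hy' : ∀ m, d (y - k) ≠ e m - e 0 := by
      intro m hm
      refine hcon (m + k) ?_
      have := congrArg (ρ (g ^ k.val)) hm
      rwa [hgd, map_sub, hge, hge, ZMod.natCast_zmod_val, sub_add_cancel, zero_add] at this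
    -- at most one point is missed
    let f : {m : ZMod n // m ≠ 0} → ZMod n := fun m => (hdiff 0 m (Ne.symm m.2)).choose
    have hf : ∀ m : {m : ZMod n // m ≠ 0}, e m - e 0 = d (f m) :=
      fun m => (hdiff 0 m (Ne.symm m.2)).choose_spec
    have hfinj : Function.Injective f := fun s t h =>
      Subtype.ext (he (sub_left_injective (by rw [hf, hf, h] : e s - e 0 = e t - e 0)))
    have hs : (Finset.univ.image f) ⊆ (Finset.univ.erase x0).erase (y - k) := by
      intro z hz
      obtain ⟨m, -, rfl⟩ := Finset.mem_image.mp hz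
      refine Finset.mem_erase.mpr ⟨fun h => hy' m (h ▸ (hf m).symm),
        Finset.mem_erase.mpr ⟨fun h => hx0 m (h ▸ (hf m).symm), Finset.mem_univ _⟩⟩
    have := Finset.card_le_card hs
    rw [Finset.card_image_of_injective _ hfinj, Finset.card_univ, Finset.card_erase_of_mem
      (Finset.mem_erase.mpr ⟨fun h => hy (by rw [← h, sub_add_cancel]), Finset.mem_univ _⟩),
      Finset.card_erase_of_mem (Finset.mem_univ _), Finset.card_univ, ZMod.card,
      Fintype.card_subtype_compl, ZMod.card, Fintype.card_subtype_eq] at this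
    omega
  -- so the differences with zero form a subgroup
  have hsub : ∀ s t : V, (s = 0 ∨ ∃ k, s = d k) → (t = 0 ∨ ∃ k, t = d k) →
      (s - t = 0 ∨ ∃ k, s - t = d k) := by
    intro s t hs ht
    obtain ⟨k, hk⟩ : ∃ k : ZMod n, (∀ y, s = d y → y ≠ x0 + k) ∧ ∀ y, t = d y → y ≠ x0 + k := by
      by_contra hcon
      push Not at hcon
      classical
      let bad : Finset V := {s, t}
      have hb : (Finset.univ.image fun k : ZMod n => d (x0 + k)) ⊆ bad := by
        intro z hz
        obtain ⟨k, -, rfl⟩ := Finset.mem_image.mp hz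
        by_cases hs' : ∀ y, s = d y → y ≠ x0 + k
        · obtain ⟨y, hy, hy'⟩ := hcon k hs'
          simp [bad, hy, hy']
        · push Not at hs'
          obtain ⟨y, hy, hy'⟩ := hs'
          simp [bad, hy, hy']
      have := Finset.card_le_card hb
      rw [Finset.card_image_of_injective _ (fun a b h => add_left_cancel (hdinj h)), Finset.card_univ,
        ZMod.card] at this
      have : bad.card ≤ 2 := Finset.card_le_two
      omega
    have get : ∀ z : V, (z = 0 ∨ ∃ y, z = d y) → (∀ y, z = d y → y ≠ x0 + k) → ∃ m, z = e m - e k := by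
      rintro z (rfl | ⟨y, rfl⟩) hz
      · exact ⟨k, (sub_self _).symm⟩
      · exact hmiss k y (hz y rfl)
    obtain ⟨i, rfl⟩ := get s hs hk.1
    obtain ⟨j, rfl⟩ := get t ht hk.2
    rw [sub_sub_sub_cancel_right]
    by_cases hji : j = i
    · exact Or.inl (by rw [hji, sub_self])
    · exact Or.inr (hdiff j i hji)
  let S : AddSubgroup V := AddSubgroup.ofSub {z | z = 0 ∨ ∃ k, z = d k} ⟨0, Or.inl rfl⟩
    (fun s hs t ht => by
      show s + -t = 0 ∨ ∃ k, s + -t = d k
      rw [← sub_eq_add_neg]; exact hsub s t hs ht)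
  have hStop : S = ⊤ := by
    refine (hirr S fun b hb z hz => ?_).resolve_left fun h => hc ?_
    · obtain ⟨i, rfl⟩ := hpow b hb
      rcases hz with rfl | ⟨k, rfl⟩
      · exact Or.inl (map_zero _)
      · exact Or.inr ⟨k + i, hgd i k⟩
    · refine AddSubgroup.mem_bot.mp (h ▸ (show c ∈ S from Or.inr ⟨0, ?_⟩))
      show c = ρ (g ^ (0 : ZMod n).val) c
      rw [ZMod.val_zero, pow_zero, one_apply]
  have hcardV : Nat.card V = n + 1 := by
    have hb : Function.Bijective (fun o : Option (ZMod n) => o.elim 0 d) := by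
      constructor
      · rintro (_ | x) (_ | y) h
        · rfl
        · exact absurd (apply_injective ρ (g ^ y.val) ((show ρ (g ^ y.val) c = 0 from h.symm).trans
            (map_zero _).symm)) hc
        · exact absurd (apply_injective ρ (g ^ x.val) ((show ρ (g ^ x.val) c = 0 from h).trans
            (map_zero _).symm)) hc
        · exact congrArg some (hdinj h)
      · intro z
        rcases (hStop.ge (AddSubgroup.mem_top z) : z = 0 ∨ ∃ k, z = d k) with rfl | ⟨k, rfl⟩
        · exact ⟨none, rfl⟩
        · exact ⟨some k, rfl⟩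
    rw [← Nat.card_eq_of_bijective _ hb, Finite.card_option, Nat.card_zmod]
  have hq2 : q = 2 := by
    have heven : 2 ∣ Nat.card V := by
      rw [hcardV]
      have hodd : Odd n := ((Fact.out : p.Prime).odd_of_ne_two hp).pow
      exact (hodd.add_odd odd_one).two_dvd
    haveI : Fact (Nat.Prime 2) := ⟨Nat.prime_two⟩
    obtain ⟨z, hz⟩ := exists_prime_addOrderOf_dvd_card' (G := V) 2 heven
    have := addOrderOf_dvd_of_nsmul_eq_zero (hq z)
    rw [hz] at this
    exact ((Nat.prime_dvd_prime_iff_eq Nat.prime_two Fact.out).mp this).symm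
  obtain ⟨h, h0, h1⟩ := h2t 0 1 1 0 h01 h01.symm
  have hh2 : ∀ m : ℕ, π (h ^ (2 * m)) 0 = 0 := by
    intro m
    induction m with
    | zero => simp
    | succ m ih =>
      rw [Nat.mul_succ, pow_add, map_mul, Equiv.Perm.mul_apply, pow_two, map_mul,
        Equiv.Perm.mul_apply, h0, h1, ih]
  rcases Nat.even_or_odd (orderOf h) with he2 | ⟨m, hm⟩
  · have hdvd := he2.two_dvd.trans (orderOf_dvd_natCard h)
    rw [hq2] at hcop
    exact Nat.not_coprime_of_dvd_of_dvd one_lt_two hdvd dvd_rfl hcop
  · have := hh2 (m + 1)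
    rw [show 2 * (m + 1) = orderOf h + 1 by omega, pow_succ, pow_orderOf_eq_one, one_mul, h0] at this
    exact h01 this.symm

/-- An element of order `p` spanning a chief factor above a central element gives blocks. -/
theorem no_normal_pair {p q : ℕ} [Fact p.Prime] [Fact q.Prime] [Nontrivial V]
    (hinj : Function.Injective ρ) (hcop : (Nat.card H).Coprime q) (hq : ∀ v : V, q • v = 0)
    (hpp : PPow ρ p) (hperf : commutator H = ⊤) (P : Sylow p H) (hirr : Irred ρ (P : Subgroup H))
    {e z : H} (heP : e ∈ (P : Subgroup H)) (hez : Commute e z) (hep : e ^ p = 1)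
    (hzp : z ^ p = 1) (hz1 : z ≠ 1) (hzc : ∀ g ∈ (P : Subgroup H), g * z = z * g)
    (hne : e ∉ Subgroup.zpowers z)
    (hconj : ∀ g ∈ (P : Subgroup H), ∃ c : ℕ, g * e * g⁻¹ = e * z ^ c) : False := by
  classical
  have hp := (Fact.out : p.Prime)
  haveI : NeZero p := ⟨hp.ne_zero⟩
  have hzval : ∀ i j : ℕ, (i : ZMod p) = j → z ^ i = z ^ j := fun i j h => by
    rw [pow_eq_pow_iff_modEq, orderOf_eq_prime hzp hz1]; exact (ZMod.natCast_eq_natCast_iff _ _ _).mp h
  let f : ZMod p → H := fun i => e * z ^ i.val
  let W : ZMod p → AddSubgroup V := fun i => AddMonoidHom.ker ((ρ (f i) - 1 : AddMonoid.End V) : V →+ V)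
  have hW : ∀ i v, v ∈ W i ↔ ρ (f i) v = v := fun i v => sub_eq_zero
  have hfp : ∀ i, f i ^ p = 1 := fun i => by
    rw [(hez.pow_right _).mul_pow, hep, one_mul, ← pow_mul, mul_comm, pow_mul, hzp, one_pow]
  have hzsum : ∀ v : V, ∑ j : ZMod p, ρ (z ^ j.val) v = 0 := fun v => by
    refine central_fpf hinj hirr hzc hz1 ?_
    rw [map_sum]
    refine Fintype.sum_equiv (Equiv.addRight (1 : ZMod p)) _ _ fun j => ?_
    rw [← mul_apply, ← pow_succ', hzval (j.val + 1) (Equiv.addRight (1 : ZMod p) j).val (by
      push_cast; rw [ZMod.natCast_zmod_val, ZMod.natCast_zmod_val]; rfl)]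
  let N : ZMod p → V → V := fun i v => ∑ k : ZMod p, ρ (f i ^ k.val) v
  have hfval : ∀ i, ∀ a b : ℕ, (a : ZMod p) = b → f i ^ a = f i ^ b := fun i a b h => by
    rw [ZMod.natCast_eq_natCast_iff] at h
    exact pow_eq_pow_iff_modEq.mpr (h.of_dvd (orderOf_dvd_of_pow_eq_one (hfp i)))
  have hNmem : ∀ i v, N i v ∈ W i := fun i v => by
    rw [hW, map_sum]
    refine Fintype.sum_equiv (Equiv.addRight (1 : ZMod p)) _ _ fun j => ?_
    rw [← mul_apply, ← pow_succ', hfval i (j.val + 1) (Equiv.addRight (1 : ZMod p) j).val (by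
      push_cast; rw [ZMod.natCast_zmod_val, ZMod.natCast_zmod_val]; rfl)]
  have hfpow : ∀ i (k : ℕ), f i ^ k = e ^ k * z ^ (i.val * k) := fun i k => by
    rw [(hez.pow_right _).mul_pow, ← pow_mul]
  have hsum : ∀ v, ∑ i, N i v = p • v := by
    intro v
    rw [Finset.sum_comm, Finset.sum_eq_single_of_mem (0 : ZMod p) (Finset.mem_univ _)]
    · simp [one_apply, ZMod.card]
    · intro k _ hk
      calc ∑ i, ρ (f i ^ k.val) v = ∑ i : ZMod p, ρ (e ^ k.val) (ρ (z ^ (i * k).val) v) := by
            refine Finset.sum_congr rfl fun i _ => ?_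
            rw [← mul_apply, hfpow, hzval (i.val * k.val) (i * k).val (by
              push_cast; rw [ZMod.natCast_zmod_val, ZMod.natCast_zmod_val, ZMod.natCast_zmod_val])]
        _ = ρ (e ^ k.val) (∑ j : ZMod p, ρ (z ^ j.val) v) := by
            rw [map_sum]
            exact Fintype.sum_equiv (Equiv.mulRight₀ k hk) _ _ fun i => rfl
        _ = 0 := by rw [hzsum, map_zero]
  have hpV : ∀ w : V, p • w = 0 → w = 0 := by
    intro w hw
    have hpd : p ∣ Nat.card H := by
      rw [← orderOf_eq_prime hzp hz1]; exact orderOf_dvd_natCard z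
    have hcop' : Nat.Coprime p q := hcop.coprime_dvd_left hpd
    rw [← AddMonoid.addOrderOf_eq_one_iff]
    exact Nat.eq_one_of_dvd_coprimes hcop' (addOrderOf_dvd_of_nsmul_eq_zero hw)
      (addOrderOf_dvd_of_nsmul_eq_zero (hq w))
  have hexp : ∀ v, ∃ u : ZMod p → V, (∀ i, u i ∈ W i) ∧ ∑ i, u i = v := by
    intro v
    have hbij : Function.Surjective (fun w : V => p • w) :=
      Finite.injective_iff_surjective.mp fun a b h => sub_eq_zero.mp (hpV _ (by
        rw [nsmul_sub]; exact sub_eq_zero.mpr h))
    obtain ⟨w, rfl⟩ := hbij v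
    exact ⟨fun i => N i w, fun i => hNmem i w, hsum w⟩
  have huniq : ∀ u : ZMod p → V, (∀ i, u i ∈ W i) → ∑ i, u i = 0 → ∀ i, u i = 0 := by
    intro u hu h0 j
    refine hpV _ ?_
    have hone : ∀ i, N j (u i) = if i = j then p • u j else 0 := by
      intro i
      have hfix : ∀ k : ℕ, ρ (f i ^ k) (u i) = u i := by
        intro k
        induction k with
        | zero => rw [pow_zero, one_apply]
        | succ k ih => rw [pow_succ, mul_apply, (hW i _).mp (hu i), ih]
      split_ifs with hij
      · subst hij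
        show ∑ k : ZMod p, ρ (f i ^ k.val) (u i) = _
        rw [Finset.sum_congr rfl fun k _ => hfix _, Finset.sum_const, Finset.card_univ, ZMod.card]
      · show ∑ k : ZMod p, ρ (f j ^ k.val) (u i) = 0
        calc ∑ k : ZMod p, ρ (f j ^ k.val) (u i)
            = ∑ k : ZMod p, ρ (z ^ ((j - i) * k).val) (ρ (f i ^ k.val) (u i)) := by
              refine Finset.sum_congr rfl fun k _ => ?_
              rw [← mul_apply, hfpow, hfpow, ← mul_assoc,
                ← ((hez.pow_left k.val).pow_right ((j - i) * k).val).eq, mul_assoc, ← pow_add,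
                hzval (j.val * k.val) (((j - i) * k).val + i.val * k.val) (by
                  push_cast
                  simp only [ZMod.natCast_zmod_val]
                  ring)]
          _ = ∑ k : ZMod p, ρ (z ^ ((j - i) * k).val) (u i) :=
              Finset.sum_congr rfl fun k _ => by rw [hfix]
          _ = ∑ k : ZMod p, ρ (z ^ k.val) (u i) :=
              Fintype.sum_equiv (Equiv.mulLeft₀ (j - i) (sub_ne_zero.mpr (Ne.symm hij))) _ _ fun k => rfl
          _ = 0 := hzsum _
    have : N j (∑ i, u i) = ∑ i, N j (u i) := by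
      show ∑ k : ZMod p, ρ (f j ^ k.val) (∑ i, u i) = ∑ i, ∑ k : ZMod p, ρ (f j ^ k.val) (u i)
      rw [Finset.sum_comm]
      exact Finset.sum_congr rfl fun k _ => map_sum _ _ _
    rw [h0, Finset.sum_congr rfl fun i _ => hone i, Finset.sum_ite_eq'] at this
    simpa [N] using this.symm
  have htr : ∀ g ∈ (P : Subgroup H), ∀ c : ℕ, g * e * g⁻¹ = e * z ^ c →
      ∀ i, ∀ w ∈ W i, ρ g w ∈ W (i + (c : ZMod p)) := by
    intro g hg c hc i w hw
    rw [hW, ← mul_apply]
    have h1 : f (i + c) * g = g * f i := by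
      show e * z ^ (i + (c : ZMod p)).val * g = g * (e * z ^ i.val)
      rw [hzval (i + (c : ZMod p)).val (c + i.val) (by
        push_cast; rw [ZMod.natCast_zmod_val, ZMod.natCast_zmod_val, add_comm]), pow_add,
        ← mul_assoc, ← hc, mul_assoc (g * e * g⁻¹),
        ← ((show Commute g z from hzc g hg).pow_right i.val).eq]
      group
    rw [h1, mul_apply, (hW i w).mp hw]
  obtain ⟨g, hg, c, hc, hc0⟩ : ∃ g ∈ (P : Subgroup H), ∃ c : ℕ,
      g * e * g⁻¹ = e * z ^ c ∧ (c : ZMod p) ≠ 0 := by
    by_contra hcon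
    push Not at hcon
    have hcent : ∀ g ∈ (P : Subgroup H), ∀ i, g * f i = f i * g := by
      intro g hg i
      obtain ⟨c, hc⟩ := hconj g hg
      have := hcon g hg c hc
      rw [hzval c 0 (by rw [this, Nat.cast_zero]), pow_zero, mul_one, mul_inv_eq_iff_eq_mul] at hc
      show g * (e * z ^ i.val) = e * z ^ i.val * g
      rw [← mul_assoc, hc, mul_assoc, mul_assoc, ((show Commute g z from hzc g hg).pow_right i.val).eq]
    have hbot : ∀ i, W i = ⊥ := fun i => (AddSubgroup.eq_bot_iff_forall _).mpr fun w hw => by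
      refine central_fpf hinj hirr (fun g hg => hcent g hg i) (fun h => hne ?_) ((hW i w).mp hw)
      rw [show e = (z ^ i.val)⁻¹ from eq_inv_of_mul_eq_one_left h]
      exact inv_mem (Subgroup.npow_mem_zpowers z _)
    obtain ⟨v, hv⟩ := exists_ne (0 : V)
    obtain ⟨u, hu, hsu⟩ := hexp v
    exact hv (by rw [← hsu]; exact Finset.sum_eq_zero fun i _ =>
      AddSubgroup.mem_bot.mp (hbot i ▸ hu i))
  have hall : ∀ i, W i = ⊥ → ∀ j, W j = ⊥ := by
    intro i hi
    have hstep : ∀ m : ℕ, W (i - (m : ZMod p) * c) = ⊥ := by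
      intro m
      induction m with
      | zero => simpa using hi
      | succ m ih =>
        refine (AddSubgroup.eq_bot_iff_forall _).mpr fun w hw => ?_
        have := htr g hg c hc _ w hw
        rw [show i - ((m + 1 : ℕ) : ZMod p) * c + c = i - (m : ZMod p) * c by push_cast; ring, ih,
          AddSubgroup.mem_bot] at this
        exact apply_injective ρ g (this.trans (map_zero _).symm)
    intro j
    have h := hstep (((i - j) * (c : ZMod p)⁻¹).val)
    rwa [ZMod.natCast_zmod_val, mul_assoc, inv_mul_cancel₀ hc0, mul_one, sub_sub_cancel] at h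
  have hne' : ∀ i, W i ≠ ⊥ := by
    intro i hi
    obtain ⟨v, hv⟩ := exists_ne (0 : V)
    obtain ⟨u, hu, hsu⟩ := hexp v
    exact hv (by rw [← hsu]; exact Finset.sum_eq_zero fun j _ =>
      AddSubgroup.mem_bot.mp (hall i hi j ▸ hu j))
  refine no_blocks hpp hperf P hirr W hne' hexp huniq (fun g hg => ?_) ?_
  · obtain ⟨c, hc⟩ := hconj g hg
    exact ⟨c, fun i w hw => htr g hg c hc i w hw⟩
  · intro htop
    obtain ⟨w, hw, hw0⟩ := ((W 1).bot_or_exists_ne_zero).resolve_left (hne' 1)
    have := huniq (fun k => if k = 0 then w else if k = 1 then -w else 0) (fun k => by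
      show (if k = 0 then w else if k = 1 then -w else 0) ∈ W k
      split_ifs with a b
      · rw [a, htop]; exact AddSubgroup.mem_top w
      · exact b ▸ (W 1).neg_mem hw
      · exact (W k).zero_mem) (by
      rw [Finset.sum_eq_add (0 : ZMod p) 1 zero_ne_one (fun k _ hk => by simp [hk.1, hk.2])
        (by simp) (by simp)]
      simp) 0
    exact hw0 (by simpa using this)

/-- A non-cyclic normal abelian subgroup of a `p`-group contains an element spanning a chief factor. -/
theorem exists_pair {p : ℕ} [Fact p.Prime] {R : Type*} [Group R] [Finite R] (hR : IsPGroup p R)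
    {A : Subgroup R} [A.Normal] (hA : IsMulCommutative A) (hnc : ¬ IsCyclic A) :
    ∃ e z : R, Commute e z ∧ e ^ p = 1 ∧ z ^ p = 1 ∧ z ≠ 1 ∧ z ∈ Subgroup.center R ∧
      e ∉ Subgroup.zpowers z ∧ ∀ g : R, ∃ c : ℕ, g * e * g⁻¹ = e * z ^ c := by
  have hcomm : ∀ a ∈ A, ∀ b ∈ A, Commute a b := fun a ha b hb =>
    congrArg Subtype.val (hA.is_comm.comm ⟨a, ha⟩ ⟨b, hb⟩)
  let U : Subgroup R :=
    { carrier := {a | a ∈ A ∧ a ^ p = 1}
      one_mem' := ⟨A.one_mem, one_pow p⟩
      mul_mem' := fun {a b} ha hb => ⟨A.mul_mem ha.1 hb.1, by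
        rw [(hcomm a ha.1 b hb.1).mul_pow, ha.2, hb.2, one_mul]⟩
      inv_mem' := fun {a} ha => ⟨A.inv_mem ha.1, by rw [inv_pow, ha.2, inv_one]⟩ }
  haveI hUn : U.Normal := ⟨fun a ha g => ⟨Subgroup.Normal.conj_mem inferInstance a ha.1 g, by
    rw [conj_pow, ha.2, mul_one, mul_inv_cancel]⟩⟩
  have hAne : A ≠ ⊥ := by
    intro h
    apply hnc
    rw [h]
    infer_instance
  have hUne : U ≠ ⊥ := by
    intro h
    classical
    obtain ⟨a, haA, ha⟩ := (A.bot_or_exists_ne_one).resolve_left hAne
    have hpd : p ∣ Nat.card A := by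
      obtain ⟨k, hk⟩ := IsPGroup.iff_card.mp (hR.to_subgroup A)
      have : 1 < Nat.card A := (Subgroup.one_lt_card_iff_ne_bot A).mpr hAne
      rcases k with _ | k
      · rw [hk, pow_zero] at this; omega
      · rw [hk]; exact dvd_pow_self p k.succ_ne_zero
    obtain ⟨b, hb⟩ := exists_prime_orderOf_dvd_card' (G := A) p hpd
    have : (b : R) ∈ U := ⟨b.2, by rw [← hb, ← Subgroup.orderOf_coe, pow_orderOf_eq_one]⟩
    rw [h, Subgroup.mem_bot] at this
    rw [← Subgroup.orderOf_coe, this, orderOf_one] at hb
    exact (Fact.out : p.Prime).one_lt.ne hb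
  obtain ⟨z, hzU, hz1, hzc⟩ := CfsgLib.TwoGroups.exists_mem_center_of_normal hR hUne
  haveI : (Subgroup.zpowers z).Normal := ⟨fun a ha g => by
    rw [show g * a * g⁻¹ = a by
      rw [Subgroup.mem_center_iff.mp ((Subgroup.zpowers_le.mpr hzc) ha) g, mul_inv_cancel_right]]
    exact ha⟩
  set f := QuotientGroup.mk' (Subgroup.zpowers z)
  haveI : (U.map f).Normal := hUn.map f (QuotientGroup.mk'_surjective _)
  have hUf : U.map f ≠ ⊥ := by
    intro h
    apply hnc
    rw [Subgroup.map_eq_bot_iff, QuotientGroup.ker_mk'] at h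
    letI : CommGroup A := { (inferInstance : Group A) with mul_comm := hA.is_comm.comm }
    refine CfsgLib.TwoGroups.isCyclic_of_uniqueOrderP_comm (hR.to_subgroup A) fun a b ha hb => ?_
    have key : ∀ x : A, orderOf x = p → (x : R) ∈ Subgroup.zpowers z := fun x hx =>
      h (show (x : R) ∈ U from ⟨x.2, by rw [← hx, ← Subgroup.orderOf_coe, pow_orderOf_eq_one]⟩)
    have heq : Subgroup.zpowers (a : R) = Subgroup.zpowers z := by
      refine Subgroup.eq_of_le_of_card_ge (Subgroup.zpowers_le.mpr (key a ha)) ?_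
      rw [Nat.card_zpowers, Nat.card_zpowers, Subgroup.orderOf_coe, ha,
        orderOf_eq_prime hzU.2 hz1]
    obtain ⟨i, hi⟩ := Subgroup.mem_zpowers_iff.mp (heq ▸ key b hb)
    exact Subgroup.mem_zpowers_iff.mpr ⟨i, Subtype.ext (by simpa using hi)⟩
  obtain ⟨ebar, ⟨e, heU, rfl⟩, he1, hec⟩ :=
    CfsgLib.TwoGroups.exists_mem_center_of_normal (hR.to_quotient (Subgroup.zpowers z)) hUf
  refine ⟨e, z, (Subgroup.mem_center_iff.mp hzc e), heU.2, hzU.2, hz1, hzc,
    fun h => he1 ((QuotientGroup.eq_one_iff e).mpr h), fun g => ?_⟩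
  have h1 : f g * f e = f e * f g := Subgroup.mem_center_iff.mp hec (f g)
  rw [← map_mul, ← map_mul] at h1
  have h2 := QuotientGroup.eq.mp h1.symm
  classical
  rw [mem_zpowers_iff_mem_range_orderOf, Finset.mem_image] at h2
  obtain ⟨c, -, hc⟩ := h2
  refine ⟨c, ?_⟩
  rw [mul_inv_eq_iff_eq_mul, mul_assoc,
    ((show Commute g z from Subgroup.mem_center_iff.mp hzc g).pow_right c).symm.eq, hc]
  group

end

/-- The index of a subgroup in a normal subgroup divides its index in the group. -/
theorem relIndex_dvd_of_normal {G : Type*} [Group G] [Finite G] (S K : Subgroup G) [K.Normal] :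
    S.relIndex K ∣ S.index := by
  obtain ⟨m, hm⟩ := Subgroup.relIndex_dvd_index_of_normal (H := K) (K := S)
  have h1 : S.relIndex K * K.index = (S ⊓ K).index := by
    rw [← Subgroup.inf_relIndex_right, Subgroup.relIndex_mul_index inf_le_right]
  have h2 : K.relIndex S * S.index = (S ⊓ K).index := by
    rw [← Subgroup.inf_relIndex_right, inf_comm, Subgroup.relIndex_mul_index inf_le_left]
  rw [← h2, hm] at h1
  exact ⟨m, Nat.eq_of_mul_eq_mul_left
    (Nat.pos_of_ne_zero (show K.relIndex S ≠ 0 from fun h => Subgroup.index_ne_zero_of_finite (H := K) (by rw [hm, h, zero_mul])))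
    (by rw [← h1]; ring)⟩

/-- A perfect group acts trivially when its faithful image is solvable. -/
theorem trivial_of_perfect {U : Type u} [AddCommGroup U] [Finite U] {H : Type u} [Group H] [Finite H]
    (hperf : commutator H = ⊤) (τ : H →* AddMonoid.End U)
    (h : ∀ τ' : H ⧸ τ.toHomUnits.ker →* AddMonoid.End U, Function.Injective τ' →
      (∀ p, PPow τ p → PPow τ' p) → Group.IsSolvable (H ⧸ τ.toHomUnits.ker)) (x : H) : τ x = 1 := by
  have hsol := h ((Units.coeHom _).comp (QuotientGroup.kerLift τ.toHomUnits))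
    (Units.val_injective.comp (QuotientGroup.kerLift_injective τ.toHomUnits)) fun p hp v => by
    obtain ⟨a, ha⟩ := hp v
    refine ⟨a, ?_⟩
    rw [← ha, ← Subgroup.index_comap_of_surjective (f := QuotientGroup.mk' τ.toHomUnits.ker) _
      (QuotientGroup.mk'_surjective τ.toHomUnits.ker)]
    rfl
  suffices hK : τ.toHomUnits.ker = ⊤ from
    congrArg Units.val (MonoidHom.mem_ker.mp (hK.ge (Subgroup.mem_top x)))
  by_contra hKt
  haveI : Nontrivial (H ⧸ τ.toHomUnits.ker) := by
    refine (Finite.one_lt_card_iff_nontrivial).mp ?_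
    rw [← Subgroup.index_eq_card]
    have := Subgroup.index_ne_zero_of_finite (H := τ.toHomUnits.ker)
    have : τ.toHomUnits.ker.index ≠ 1 := fun h => hKt (Subgroup.index_eq_one.mp h)
    omega
  refine (Group.IsSolvable.commutator_lt_top_of_nontrivial (H ⧸ τ.toHomUnits.ker)).ne ?_
  rw [_root_.commutator_def, ← Subgroup.map_top_of_surjective _ (QuotientGroup.mk'_surjective τ.toHomUnits.ker),
    ← Subgroup.map_commutator, ← _root_.commutator_def, hperf]

/-- The minimal case is impossible. -/
theorem false_of_minimal {V : Type u} [AddCommGroup V] [Finite V] [Nontrivial V] {H : Type u}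
    [Group H] [Finite H] {ρ : H →* AddMonoid.End V} {p q : ℕ} [Fact p.Prime] [Fact q.Prime]
    (hinj : Function.Injective ρ) (hcop : (Nat.card H).Coprime q) (hq : ∀ v : V, q • v = 0)
    (hpp : PPow ρ p) (hperf : commutator H = ⊤) (hns : ¬ Group.IsSolvable H) (P : Sylow p H)
    (hirr : Irred ρ (P : Subgroup H))
    (hnormal : ∀ K : Subgroup H, K.Normal → K ≠ ⊤ → IsPGroup p K ∨ K = ⊥ ∨
      ∃ B : Subgroup H, B.Normal ∧ B ≠ ⊥ ∧ B ≤ K ∧ IsPGroup p B) : False := by
  classical
  have hp := (Fact.out : p.Prime)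
  have hPtop : (P : Subgroup H) ≠ ⊤ := by
    intro h
    apply hns
    haveI : Group.IsNilpotent (P : Subgroup H) := P.2.isNilpotent
    exact Group.isSolvable_of_surjective
      (f := (((MulEquiv.subgroupCongr h).trans Subgroup.topEquiv) : (P : Subgroup H) ≃* H).toMonoidHom)
      (MulEquiv.surjective _)
  -- no normal non-cyclic abelian subgroup
  have hcycA : ∀ A : Subgroup (P : Subgroup H), A.Normal → IsMulCommutative A → IsCyclic A := by
    intro A hA hAc
    by_contra hnc
    haveI := hA
    obtain ⟨e, z, hez, hep, hzp, hz1, hzc, hne, hconj⟩ := exists_pair P.2 hAc hnc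
    refine no_normal_pair hinj hcop hq hpp hperf P hirr e.2 (hez.map (P : Subgroup H).subtype)
      (by simpa using congrArg Subtype.val hep) (by simpa using congrArg Subtype.val hzp)
      (fun h => hz1 (Subtype.ext h))
      (fun g hg => congrArg Subtype.val (Subgroup.mem_center_iff.mp hzc ⟨g, hg⟩))
      (fun h => hne ?_) (fun g hg => ?_)
    · obtain ⟨i, hi⟩ := Subgroup.mem_zpowers_iff.mp h
      exact Subgroup.mem_zpowers_iff.mpr ⟨i, Subtype.ext (by simpa using hi)⟩
    · obtain ⟨c, hc⟩ := hconj ⟨g, hg⟩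
      exact ⟨c, by simpa using congrArg Subtype.val hc⟩
  by_cases hp2 : p = 2
  swap
  · -- odd prime: cyclic
    have hcyc : IsCyclic (P : Subgroup H) := by
      by_contra hnc
      obtain ⟨A, hA, hAe, hAc⟩ := Cfsg.Agent.S0126.result hp2 P.2 hnc
      have := hcycA A hA hAe.1
      obtain ⟨a, ha⟩ := IsCyclic.exists_ofOrder_eq_natCard (α := A)
      have h1 : orderOf a ∣ p := orderOf_dvd_of_pow_eq_one (Subtype.ext (hAe.2 a a.2))
      rw [ha, hAc] at h1
      have := Nat.le_of_dvd hp.pos h1
      have : p < p ^ 2 := by rw [pow_two]; exact lt_mul_self hp.one_lt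
      omega
    have hPc : IsMulCommutative (P : Subgroup H) := by
      obtain ⟨g, hg⟩ := hcyc.exists_generator
      exact ⟨⟨fun a b => by
        obtain ⟨i, rfl⟩ := Subgroup.mem_zpowers_iff.mp (hg a)
        obtain ⟨j, rfl⟩ := Subgroup.mem_zpowers_iff.mp (hg b)
        rw [← zpow_add, ← zpow_add, add_comm]⟩⟩
    haveI : Nontrivial H := by
      by_contra h
      rw [not_nontrivial_iff_subsingleton] at h
      exact hns inferInstance
    have hnob : ∀ B : Subgroup H, B.Normal → IsPGroup p B → B = ⊥ := by
      intro B hB hBp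
      obtain ⟨Q, hQ⟩ := hBp.exists_le_sylow
      obtain ⟨c, hc⟩ := MulAction.exists_smul_eq H Q P
      have hBP : B ≤ (P : Subgroup H) := by
        rw [← hc]
        intro b hb
        rw [Sylow.coe_subgroup_smul, Subgroup.mem_pointwise_smul_iff_inv_smul_mem]
        exact hQ (by simpa using hB.conj_mem b hb c⁻¹)
      -- the conjugation action on a cyclic group is abelian, hence trivial
      haveI := hB
      haveI : IsCyclic B := Subgroup.isCyclic_of_le hBP
      have hker : commutator H ≤ (MulAut.conjNormal : H →* MulAut B).ker := by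
        rw [_root_.commutator_def, Subgroup.commutator_le]
        intro x _ y _
        rw [MonoidHom.mem_ker, map_commutatorElement, commutatorElement_eq_one_iff_commute]
        obtain ⟨b, hb⟩ := IsCyclic.exists_generator (α := B)
        refine MulEquiv.ext fun w => ?_
        obtain ⟨i, rfl⟩ := Subgroup.mem_zpowers_iff.mp (hb w)
        obtain ⟨r, hr⟩ := Subgroup.mem_zpowers_iff.mp (hb ((MulAut.conjNormal x : MulAut B) b))
        obtain ⟨s, hs⟩ := Subgroup.mem_zpowers_iff.mp (hb ((MulAut.conjNormal y : MulAut B) b))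
        simp only [MulAut.mul_apply, map_zpow, ← hr, ← hs, ← zpow_mul]
        rw [mul_comm r s]
      refine (Subgroup.eq_bot_iff_forall B).mpr fun b hb =>
        eq_one_of_central hperf P hPc (hBP hb) fun h => ?_
      have := congrArg Subtype.val (DFunLike.congr_fun (MonoidHom.mem_ker.mp
        (hker (hperf.symm ▸ Subgroup.mem_top h))) (⟨b, hb⟩ : B))
      rwa [MulAut.conjNormal_apply, MulAut.one_apply, mul_inv_eq_iff_eq_mul] at this
    haveI : IsSimpleGroup H :=
      { exists_pair_ne := Nontrivial.exists_pair_ne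
        eq_bot_or_eq_top_of_normal := fun K hK => by
          by_contra hcon
          push Not at hcon
          rcases hnormal K hK hcon.2 with h | h | ⟨B, hB, hBb, -, hBp⟩
          · exact hcon.1 (hnob K hK h)
          · exact hcon.1 h
          · exact hBb (hnob B hB hBp) }
    exact no_cyclic hinj hp2 hcop hq hpp hperf hns P hirr hcyc
  subst hp2
  have hno2 : ∀ K : Subgroup H, K.index ≠ 2 := by
    intro K hK
    haveI : K.Normal := Subgroup.normal_of_index_eq_two hK
    have hcardQ : Nat.card (H ⧸ K) = 2 := by rw [← hK, Subgroup.index_eq_card]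
    haveI : IsCyclic (H ⧸ K) := isCyclic_of_prime_card (p := 2) hcardQ
    have hle : commutator H ≤ K := by
      rw [_root_.commutator_def, Subgroup.commutator_le]
      intro x _ y _
      rw [← QuotientGroup.eq_one_iff, ← QuotientGroup.mk'_apply, map_commutatorElement,
        commutatorElement_eq_one_iff_commute]
      exact IsMulCommutative.is_comm.comm _ _
    rw [show K = ⊤ from top_le_iff.mp (hperf ▸ hle), Subgroup.index_top] at hK
    omega
  have heven : Even (Nat.card H) := by
    by_contra hodd
    apply hns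
    refine Group.isSolvable_of_comm fun x y => ?_
    suffices ∀ h : H, h = 1 by rw [this x, this y]
    refine fun h => hinj (DFunLike.ext _ _ fun v => ?_)
    obtain ⟨b, hb, hbv⟩ := exists_mem_sylow hpp P h v
    have hd : orderOf b ∣ 2 ^ (Nat.card H).factorization 2 := by
      rw [← P.card_eq_multiplicity]; exact Subgroup.orderOf_dvd_natCard _ hb
    rw [Nat.factorization_eq_zero_of_not_dvd (fun hd => hodd (even_iff_two_dvd.mpr hd)), pow_zero,
      Nat.dvd_one, orderOf_eq_one_iff] at hd
    rw [hbv, hd]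
  have hqodd : Odd q := by
    rcases (Fact.out : q.Prime).eq_two_or_odd' with rfl | h
    · exact absurd heven.two_dvd fun h2 =>
        Nat.not_coprime_of_dvd_of_dvd one_lt_two h2 dvd_rfl hcop
    · exact h
  have hncyc : ¬ IsCyclic (P : Subgroup H) := fun hc => by
    obtain ⟨K, hK⟩ := CfsgLib.Involutions.exists_index_two_of_cyclic_sylow heven P hc
    exact hno2 K hK
  by_cases hu : CfsgLib.TwoGroups.UniqueOrderP 2 (P : Subgroup H)
  · -- quaternion
    obtain ⟨-, m, hm, ⟨φ⟩⟩ := (CfsgLib.TwoGroups.isCyclic_or_quaternion P.2 hu).resolve_left hncyc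
    haveI : NeZero (2 ^ m) := ⟨pow_ne_zero _ two_ne_zero⟩
    set x : (P : Subgroup H) := φ.symm (QuaternionGroup.a 1)
    set y : (P : Subgroup H) := φ.symm (QuaternionGroup.xa 0)
    have hox : orderOf (x : H) = 2 ^ (m + 1) := by
      rw [Subgroup.orderOf_coe, MulEquiv.orderOf_eq, QuaternionGroup.orderOf_a_one, pow_succ']
    have hyx : (y : H) * x = (x : H)⁻¹ * y := by
      have : y * x = x⁻¹ * y := by
        apply φ.injective
        simp only [map_mul, map_inv, x, y, MulEquiv.apply_symm_apply]
        rw [show (QuaternionGroup.a (1 : ZMod (2 * 2 ^ m)))⁻¹ = QuaternionGroup.a (-1) from rfl,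
          QuaternionGroup.xa_mul_a, QuaternionGroup.a_mul_xa]
        congr 1
        ring
      simpa using congrArg Subtype.val this
    have hgen : ∀ g ∈ (P : Subgroup H), ∃ i : ℕ, g = (x : H) ^ i ∨ g = (x : H) ^ i * y := by
      intro g hg
      have hg' : φ.symm (φ ⟨g, hg⟩) = ⟨g, hg⟩ := φ.symm_apply_apply _
      rcases hq' : φ ⟨g, hg⟩ with i | i
      · refine ⟨i.val, Or.inl ?_⟩
        have : φ.symm (QuaternionGroup.a 1 ^ i.val) = ⟨g, hg⟩ := by
          rw [QuaternionGroup.a_one_pow, ZMod.natCast_zmod_val, ← hq', hg']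
        rw [map_pow] at this
        simpa using (congrArg Subtype.val this).symm
      · refine ⟨(-i).val, Or.inr ?_⟩
        have : φ.symm (QuaternionGroup.a 1 ^ (-i).val * QuaternionGroup.xa 0) = ⟨g, hg⟩ := by
          rw [QuaternionGroup.a_one_pow, ZMod.natCast_zmod_val, QuaternionGroup.a_mul_xa, zero_sub,
            neg_neg, ← hq', hg']
        rw [map_mul, map_pow] at this
        simpa using (congrArg Subtype.val this).symm
    have hy2 : ∀ v : V, ρ ((y : H) * y) v = -v := by
      refine apply_eq_neg hinj hirr (fun g hg => ?_) ?_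
      · have hyy : y * y = x ^ (2 ^ m) := by
          apply φ.injective
          simp only [map_mul, map_pow, x, y, MulEquiv.apply_symm_apply, QuaternionGroup.a_one_pow,
            QuaternionGroup.xa_mul_xa, Nat.cast_pow, sub_zero, add_zero]
        have hyy' : (y : H) * y = (x : H) ^ (2 ^ m) := by simpa using congrArg Subtype.val hyy
        obtain ⟨i, rfl | rfl⟩ := hgen g hg
        · rw [hyy', ← pow_add, ← pow_add, add_comm]
        · rw [mul_assoc, ← mul_assoc (y : H) y y, hyy', ← mul_assoc, ← pow_add, add_comm, pow_add,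
            mul_assoc, ← mul_assoc]
      · show orderOf ((y : H) * y) = 2
        rw [← pow_two, ← Subgroup.coe_pow, Subgroup.orderOf_coe, orderOf_pow, MulEquiv.orderOf_eq,
          QuaternionGroup.orderOf_xa]
        rfl
    exact hPtop (eq_top_of_inverted hinj hcop hq hqodd hpp hperf P hirr x.2 y.2 hm hox hgen hyx hy2)
  · -- an involution outside a cyclic subgroup of index two
    obtain ⟨M, hMc, hM2⟩ : ∃ M : Subgroup (P : Subgroup H), IsCyclic M ∧ M.index = 2 := by
      have hm : ∃ B : Subgroup (P : Subgroup H), IsMulCommutative B ∧ ¬ IsCyclic B := by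
        simp only [CfsgLib.TwoGroups.UniqueOrderP] at hu
        push Not at hu
        obtain ⟨a, b, ha, hb, hab⟩ := hu
        haveI : Nontrivial (P : Subgroup H) := ⟨⟨a, 1, fun h => by simp [h] at ha⟩⟩
        haveI := P.2.center_nontrivial
        have hZ : (Subgroup.center (P : Subgroup H)) ≠ ⊥ := (Subgroup.nontrivial_iff_ne_bot _).mp inferInstance
        obtain ⟨z, hz⟩ := exists_prime_orderOf_dvd_card' (G := Subgroup.center (P : Subgroup H)) 2 (by
          obtain ⟨k, hk⟩ := IsPGroup.iff_card.mp (P.2.to_subgroup (Subgroup.center (P : Subgroup H)))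
          have : 1 < Nat.card (Subgroup.center (P : Subgroup H)) :=
            (Subgroup.one_lt_card_iff_ne_bot _).mpr hZ
          rcases k with _ | k
          · rw [hk, pow_zero] at this; omega
          · rw [hk]; exact dvd_pow_self 2 k.succ_ne_zero)
        rw [← Subgroup.orderOf_coe] at hz
        obtain ⟨t, ht, hzt⟩ : ∃ t, orderOf t = 2 ∧ t ∉ Subgroup.zpowers (z : (P : Subgroup H)) := by
          by_cases haz : a ∈ Subgroup.zpowers (z : (P : Subgroup H))
          · refine ⟨b, hb, fun hbz => hab ?_⟩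
            have : Subgroup.zpowers a = Subgroup.zpowers (z : (P : Subgroup H)) := by
              refine Subgroup.eq_of_le_of_card_ge (Subgroup.zpowers_le.mpr haz) ?_
              rw [Nat.card_zpowers, Nat.card_zpowers, ha, hz]
            exact this ▸ hbz
          · exact ⟨a, ha, haz⟩
        refine ⟨Subgroup.closure {t, (z : (P : Subgroup H))}, ?_, ?_⟩
        · refine Subgroup.isMulCommutative_closure fun x hx y hy => ?_
          rcases hx with rfl | rfl <;> rcases hy with rfl | rfl
          · rfl
          · exact Subgroup.mem_center_iff.mp z.2 _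
          · exact (Subgroup.mem_center_iff.mp z.2 _).symm
          · rfl
        · intro hc
          haveI := hc
          have := CfsgLib.TwoGroups.involution_unique
            (a := (⟨t, Subgroup.subset_closure (Or.inl rfl)⟩ : Subgroup.closure {t, (z : (P : Subgroup H))}))
            (b := ⟨_, Subgroup.subset_closure (Or.inr rfl)⟩)
            (by rw [← Subgroup.orderOf_coe]; exact ht) (by rw [← Subgroup.orderOf_coe]; exact hz)
          have h : t = (z : (P : Subgroup H)) := congrArg Subtype.val this
          exact hzt (h ▸ Subgroup.mem_zpowers _)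
      obtain ⟨-, hshape⟩ := Cfsg.Agent.S0519.result 2 P.2 hcycA hm
      rcases hshape with ⟨k, ⟨φ⟩⟩ | ⟨k, hk8, ⟨φ⟩⟩ | ⟨k, hk3, hcard, x, y, hox, -, -⟩
      · have hk : k ≠ 0 := by
          rintro rfl
          obtain ⟨m, hm, hm1⟩ := (isOfFinOrder_of_finite (φ.symm (QuaternionGroup.a 1))).exists_pow_eq_one
          rw [← map_pow, QuaternionGroup.a_one_pow, MulEquiv.map_eq_one_iff, QuaternionGroup.one_def,
            QuaternionGroup.a.injEq] at hm1
          exact hm.ne' (Int.natCast_eq_zero.mp hm1)
        haveI : NeZero k := ⟨hk⟩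
        refine ⟨Subgroup.zpowers (φ.symm (QuaternionGroup.a 1)), Subgroup.isCyclic_zpowers _, ?_⟩
        have h1 := (Subgroup.zpowers (φ.symm (QuaternionGroup.a 1))).card_mul_index
        rw [Nat.card_zpowers, MulEquiv.orderOf_eq, QuaternionGroup.orderOf_a_one,
          Nat.card_congr φ.toEquiv, Nat.card_eq_fintype_card, QuaternionGroup.card] at h1
        exact Nat.eq_of_mul_eq_mul_left (show 0 < 2 * k by omega) (h1.trans (by ring) : _ = 2 * k * 2)
      · haveI : NeZero k := ⟨by omega⟩
        refine ⟨Subgroup.zpowers (φ.symm (DihedralGroup.r 1)), Subgroup.isCyclic_zpowers _, ?_⟩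
        have h1 := (Subgroup.zpowers (φ.symm (DihedralGroup.r 1))).card_mul_index
        rw [Nat.card_zpowers, MulEquiv.orderOf_eq, DihedralGroup.orderOf_r_one,
          Nat.card_congr φ.toEquiv, DihedralGroup.nat_card] at h1
        exact Nat.eq_of_mul_eq_mul_left (show 0 < k by omega) (h1.trans (by ring) : _ = k * 2)
      · refine ⟨Subgroup.zpowers x, Subgroup.isCyclic_zpowers _, ?_⟩
        have h1 := (Subgroup.zpowers x).card_mul_index
        rw [Nat.card_zpowers, hox, hcard] at h1
        exact Nat.eq_of_mul_eq_mul_left (pow_pos two_pos _) (h1.trans (pow_succ 2 k))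
    haveI := hMc
    haveI hMn : M.Normal := Subgroup.normal_of_index_eq_two hM2
    haveI : Nontrivial (P : Subgroup H) := by
      by_contra h
      rw [not_nontrivial_iff_subsingleton] at h
      rw [Subgroup.index_eq_one.mpr (Subsingleton.elim _ _)] at hM2
      omega
    have hMb : M ≠ ⊥ := by
      intro h
      apply hncyc
      rw [h, Subgroup.index_bot] at hM2
      exact isCyclic_of_prime_card (p := 2) hM2
    obtain ⟨z, hzM, hz1, hzc⟩ := CfsgLib.TwoGroups.exists_mem_center_of_normal P.2 hMb
    obtain ⟨z', hz'M, hz'c, hz'o⟩ : ∃ w, w ∈ M ∧ w ∈ Subgroup.center (P : Subgroup H) ∧ orderOf w = 2 := by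
      obtain ⟨k, hk⟩ := IsPGroup.iff_orderOf.mp P.2 z
      rcases k with _ | k
      · rw [pow_zero, orderOf_eq_one_iff] at hk; exact absurd hk hz1
      · refine ⟨z ^ 2 ^ k, M.pow_mem hzM _, Subgroup.pow_mem _ hzc _, ?_⟩
        rw [orderOf_pow_of_dvd (pow_ne_zero _ two_ne_zero) (by rw [hk]; exact pow_dvd_pow 2 k.le_succ),
          hk, Nat.pow_div k.le_succ two_pos]
        simp
    obtain ⟨t, htM, ht⟩ : ∃ t, t ∉ M ∧ orderOf t = 2 := by
      simp only [CfsgLib.TwoGroups.UniqueOrderP] at hu
      push Not at hu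
      obtain ⟨a, b, ha, hb, hab⟩ := hu
      by_cases haM : a ∈ M
      · refine ⟨b, fun hbM => hab ?_, hb⟩
        have := CfsgLib.TwoGroups.involution_unique (a := (⟨a, haM⟩ : M)) (b := ⟨b, hbM⟩)
          (by rw [← Subgroup.orderOf_coe]; exact ha) (by rw [← Subgroup.orderOf_coe]; exact hb)
        rw [show a = b from congrArg Subtype.val this]
        exact Subgroup.mem_zpowers b
      · exact ⟨a, haM, ha⟩
    have hneg := apply_eq_neg hinj hirr
      (fun g hg => congrArg Subtype.val (Subgroup.mem_center_iff.mp hz'c ⟨g, hg⟩))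
      (by rw [Subgroup.orderOf_coe]; exact hz'o)
    have hzcent := commute_of_apply_eq_neg hinj hneg
    obtain ⟨K, hK⟩ := CfsgLib.Involutions.exists_index_two_of_involution_not_conj
      (M := M.map (P : Subgroup H).subtype) (x := (t : H)) (by rw [Subgroup.orderOf_coe]; exact ht) (by
        rw [Subgroup.index_map, Subgroup.ker_subtype, sup_bot_eq, Subgroup.range_subtype, hM2]
        have := P.not_dvd_index
        omega) (fun g hg => by
        obtain ⟨w, hwM, hw⟩ := hg
        have hwo : orderOf w = 2 := by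
          rw [← Subgroup.orderOf_coe, show (w : H) = g * t * g⁻¹ from hw]
          exact (MulEquiv.orderOf_eq (MulAut.conj g) (t : H)).trans ((Subgroup.orderOf_coe t).trans ht)
        have heq := CfsgLib.TwoGroups.involution_unique (a := (⟨w, hwM⟩ : M)) (b := ⟨z', hz'M⟩)
          (by rw [← Subgroup.orderOf_coe]; exact hwo) (by rw [← Subgroup.orderOf_coe]; exact hz'o)
        apply htM
        have h1 : (t : H) = z' := by
          have h2 : g * t * g⁻¹ = (z' : H) := by
            rw [← show (w : H) = g * t * g⁻¹ from hw, show w = z' from congrArg Subtype.val heq]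
          calc (t : H) = g⁻¹ * (g * t * g⁻¹) * g := by group
            _ = g⁻¹ * (z' * g) := by rw [h2, mul_assoc]
            _ = z' := by rw [← hzcent g, inv_mul_cancel_left]
        rw [Subtype.ext h1]
        exact hz'M)
    exact hno2 K hK

/-- A finite group acting faithfully and coprimely on a finite abelian `q`-group with all orbits of
size a power of the prime `p` is solvable. -/
theorem isSolvable_of_ppow {q : ℕ} [Fact q.Prime] {p : ℕ} [Fact p.Prime] :
    ∀ {V : Type u} [AddCommGroup V] [Finite V] {H : Type u} [Group H] [Finite H]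
      {ρ : H →* AddMonoid.End V}, IsPGroup q (Multiplicative V) → Function.Injective ρ →
      (Nat.card H).Coprime q → PPow ρ p → Group.IsSolvable H := by
  suffices key : ∀ n : ℕ, ∀ {V : Type u} [AddCommGroup V] [Finite V] {H : Type u} [Group H] [Finite H]
      {ρ : H →* AddMonoid.End V}, Nat.card V + Nat.card H = n → IsPGroup q (Multiplicative V) →
      Function.Injective ρ → (Nat.card H).Coprime q → PPow ρ p → Group.IsSolvable H from
    fun {V} _ _ {H} _ _ {ρ} h1 h2 h3 h4 => key _ rfl h1 h2 h3 h4
  intro n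
  induction n using Nat.strong_induction_on with
  | _ n ih =>
  intro V _ _ H _ _ ρ hn hVq hinj hcop hpp
  subst hn
  classical
  by_contra hns
  -- normal subgroups inherit the hypothesis
  have hsub : ∀ K : Subgroup H, K.Normal → K ≠ ⊤ → Group.IsSolvable K := by
    intro K hK hKt
    haveI := hK
    have hlt : Nat.card K < Nat.card H := by
      have := K.card_mul_index
      have h1 : 1 < K.index := by
        have := Subgroup.index_ne_zero_of_finite (H := K)
        have : K.index ≠ 1 := fun h => hKt (Subgroup.index_eq_one.mp h)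
        omega
      nlinarith [Nat.card_pos (α := K)]
    refine ih _ (by omega) (ρ := ρ.comp K.subtype) rfl hVq (hinj.comp K.subtype_injective)
      (hcop.coprime_dvd_left (Subgroup.card_subgroup_dvd_card K)) fun v => ?_
    obtain ⟨a, ha⟩ := hpp v
    have h1 : (stab (ρ.comp K.subtype) v).index = (stab ρ v).relIndex K := by
      show _ = ((stab ρ v).subgroupOf K).index
      congr 1
    obtain ⟨b, -, hb⟩ := (Nat.dvd_prime_pow Fact.out).mp
      (ha ▸ h1 ▸ relIndex_dvd_of_normal (stab ρ v) K)
    exact ⟨b, hb⟩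
  have hperf : commutator H = ⊤ := by
    by_contra hne
    haveI := hsub (commutator H) inferInstance hne
    haveI : Group.IsSolvable (H ⧸ commutator H) := Group.isSolvable_of_comm fun a b => by
      induction a using QuotientGroup.induction_on with
      | _ a =>
        induction b using QuotientGroup.induction_on with
        | _ b =>
          rw [← QuotientGroup.mk_mul, ← QuotientGroup.mk_mul, QuotientGroup.eq]
          have := Subgroup.commutator_mem_commutator (H₁ := ⊤) (H₂ := (⊤ : Subgroup H))
            (Subgroup.mem_top b⁻¹) (Subgroup.mem_top a⁻¹)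
          rw [commutatorElement_def, inv_inv, inv_inv, ← _root_.commutator_def] at this
          simpa [mul_assoc] using this
    exact hns ((Group.isSolvable_iff_subgroup_quotient (commutator H)).mpr
      ⟨inferInstance, inferInstance⟩)
  have hqV : ∀ w : V, ∃ k : ℕ, q ^ k • w = 0 := fun w => by
    obtain ⟨k, hk⟩ := hVq (Multiplicative.ofAdd w)
    exact ⟨k, hk⟩
  have hcopV : (Nat.card H).Coprime (Nat.card V) := by
    obtain ⟨k, hk⟩ := IsPGroup.iff_card.mp hVq
    rw [Nat.card_congr Multiplicative.toAdd] at hk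
    rw [hk]
    exact hcop.pow_right k
  obtain ⟨P⟩ : Nonempty (Sylow p H) := inferInstance
  -- `P` is irreducible
  have hirr : Irred ρ (P : Subgroup H) := by
    intro W hW
    by_contra hcon
    push Not at hcon
    obtain ⟨hWb, hWt⟩ := hcon
    have hinv : ∀ (h : H) {w : V}, w ∈ W → ρ h w ∈ W := fun h w hw => invariant_of_sylow hpp P hW h hw
    have hWcard : Nat.card W < Nat.card V := by
      have := W.card_mul_index
      have h1 : 1 < W.index := by
        have := AddSubgroup.index_ne_zero_of_finite (H := W)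
        have : W.index ≠ 1 := fun h => hWt (AddSubgroup.index_eq_one.mp h)
        omega
      nlinarith [Nat.card_pos (α := W)]
    have hQcard : Nat.card (V ⧸ W) < Nat.card V := by
      have := W.card_mul_index
      have h1 : 1 < Nat.card W := (AddSubgroup.one_lt_card_iff_ne_bot W).mpr hWb
      rw [AddSubgroup.index_eq_card] at this
      nlinarith [Nat.card_pos (α := V ⧸ W)]
    -- a perfect group acting on a smaller module acts trivially
    have triv : ∀ {U : Type u} [AddCommGroup U] [Finite U] (τ : H →* AddMonoid.End U),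
        Nat.card U < Nat.card V → IsPGroup q (Multiplicative U) → PPow τ p → ∀ h, τ h = 1 := by
      intro U _ _ τ hU hUq hUp
      exact trivial_of_perfect hperf τ fun τ' hinj' hU' =>
        ih _ (by
          have := Nat.card_le_card_of_surjective _ (QuotientGroup.mk'_surjective τ.toHomUnits.ker)
          omega) (ρ := τ') rfl hUq hinj'
          (hcop.coprime_dvd_left (Subgroup.card_quotient_dvd_card τ.toHomUnits.ker)) (hU' p hUp)
    let τW : H →* AddMonoid.End W :=
      { toFun := fun h =>
          ({ toFun := fun w => ⟨ρ h w, hinv h w.2⟩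
             map_zero' := Subtype.ext (map_zero _)
             map_add' := fun a b => Subtype.ext (map_add _ _ _) } : W →+ W)
        map_one' := AddMonoidHom.ext fun (w : W) => Subtype.ext (one_apply ρ (w : V))
        map_mul' := fun a b => AddMonoidHom.ext fun (w : W) => Subtype.ext (mul_apply ρ a b (w : V)) }
    have hW1 := triv τW hWcard (IsPGroup.of_injective hVq (AddMonoidHom.toMultiplicative W.subtype)
        (fun a b h => Subtype.ext h)) (fun w => by
      obtain ⟨a, ha⟩ := hpp (w : V)
      refine ⟨a, ?_⟩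
      rw [← ha]
      congr 1
      ext h
      exact Subtype.ext_iff)
    let τQ : H →* AddMonoid.End (V ⧸ W) :=
      { toFun := fun h => QuotientAddGroup.map W W (ρ h) (fun w hw => hinv h hw)
        map_one' := DFunLike.ext _ _ fun v => by
          induction v using QuotientAddGroup.induction_on with
          | _ v =>
            show ((ρ 1 v : V) : V ⧸ W) = (v : V ⧸ W)
            rw [one_apply]
        map_mul' := fun a b => DFunLike.ext _ _ fun v => by
          induction v using QuotientAddGroup.induction_on with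
          | _ v =>
            show ((ρ (a * b) v : V) : V ⧸ W) = ((ρ a (ρ b v) : V) : V ⧸ W)
            rw [mul_apply] }
    have hQ1 := triv τQ hQcard (IsPGroup.of_surjective hVq (AddMonoidHom.toMultiplicative
        (QuotientAddGroup.mk' W)) (QuotientAddGroup.mk'_surjective W)) (fun v => by
      induction v using QuotientAddGroup.induction_on with
      | _ v =>
      obtain ⟨a, ha⟩ := hpp v
      obtain ⟨b, -, hb⟩ := (Nat.dvd_prime_pow Fact.out).mp (ha ▸ Subgroup.index_dvd_of_le
        (show stab ρ v ≤ stab τQ (v : V ⧸ W) from fun h hh => by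
          show ((ρ h v : V) : V ⧸ W) = (v : V ⧸ W)
          rw [(hh : ρ h v = v)]))
      exact ⟨b, hb⟩)
    apply hns
    refine Group.isSolvable_of_comm fun x y => ?_
    suffices htriv : ∀ h : H, h = 1 by rw [htriv x, htriv y]
    refine fun h => hinj (DFunLike.ext _ _ fun v => ?_)
    rw [one_apply]
    have hd : ρ h v - v ∈ W := by
      rw [← QuotientAddGroup.eq_iff_sub_mem]
      exact DFunLike.congr_fun (hQ1 h) (v : V ⧸ W)
    exact eq_id_of_trivial_step hcopV
      (congrArg Subtype.val (DFunLike.congr_fun (hW1 h) (⟨_, hd⟩ : W)))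
  haveI : Nontrivial V := by
    by_contra h
    rw [not_nontrivial_iff_subsingleton] at h
    apply hns
    exact Group.isSolvable_of_comm fun x y => hinj (DFunLike.ext _ _ fun v => Subsingleton.elim _ _)
  -- exponent `q`
  have hq : ∀ v : V, q • v = 0 := by
    rcases hirr (AddMonoidHom.ker (nsmulAddMonoidHom q : V →+ V)) (fun g _ w hw => by
        show q • ρ g w = 0
        rw [← map_nsmul, show q • w = 0 from hw, map_zero]) with h | h
    · exfalso
      obtain ⟨v, hv⟩ := exists_ne (0 : V)
      obtain ⟨k, hk⟩ := hqV v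
      have : ∀ k : ℕ, ∀ w : V, q ^ k • w = 0 → w = 0 := by
        intro k
        induction k with
        | zero => intro w hw; simpa using hw
        | succ k ihk =>
          intro w hw
          rw [pow_succ, mul_nsmul] at hw
          have := ihk (q • w) (by rw [← mul_nsmul, mul_comm, mul_nsmul]; exact hw)
          exact AddSubgroup.mem_bot.mp (h ▸ (show w ∈ AddMonoidHom.ker
            (nsmulAddMonoidHom q : V →+ V) from this))
      exact hv (this k v hk)
    · exact fun v => h.ge (AddSubgroup.mem_top v)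
  refine false_of_minimal hinj hcop hq hpp hperf hns P hirr fun K hK hKt => ?_
  haveI := hK
  haveI := hsub K hK hKt
  by_cases hKb : K = ⊥
  · exact Or.inr (Or.inl hKb)
  refine Or.inr (Or.inr ?_)
  -- a solvable normal subgroup meets the centre of `p`
  obtain ⟨M, hMK, hMn, hMb, hmin⟩ := CfsgLib.SolvableStructure.exists_minimal_normal hK hKb
  refine ⟨M, hMn, hMb, hMK, ?_⟩
  haveI : Group.IsSolvable M := Group.isSolvable_of_isSolvable_injective (Subgroup.inclusion_injective hMK)
  have hMc : ⁅M, M⁆ = ⊥ := by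
    by_contra hne
    have heq := (hmin ⁅M, M⁆ inferInstance (Subgroup.commutator_le_self M)).resolve_left hne
    haveI : Nontrivial M := (Subgroup.nontrivial_iff_ne_bot M).mpr hMb
    refine (Group.IsSolvable.commutator_lt_top_of_nontrivial M).ne
      (Subgroup.map_injective M.subtype_injective ?_)
    rw [Subgroup.map_subtype_commutator, heq, ← MonoidHom.range_eq_map, Subgroup.range_subtype]
  have hMcomm : ∀ x ∈ M, ∀ y ∈ M, Commute x y := fun x hx y hy =>
    commutatorElement_eq_one_iff_commute.mp
      (Subgroup.mem_bot.mp (hMc ▸ Subgroup.commutator_mem_commutator hx hy))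
  obtain ⟨m, hmM, hm1⟩ := (M.bot_or_exists_ne_one).resolve_left hMb
  obtain ⟨r, hr, hrd⟩ := Nat.exists_prime_and_dvd
    (show orderOf m ≠ 1 from fun h => hm1 (orderOf_eq_one_iff.mp h))
  let U : Subgroup H :=
    { carrier := {a | a ∈ M ∧ a ^ r = 1}
      one_mem' := ⟨M.one_mem, one_pow r⟩
      mul_mem' := fun {a b} ha hb => ⟨M.mul_mem ha.1 hb.1, by
        rw [(hMcomm a ha.1 b hb.1).mul_pow, ha.2, hb.2, one_mul]⟩
      inv_mem' := fun {a} ha => ⟨M.inv_mem ha.1, by rw [inv_pow, ha.2, inv_one]⟩ }
  haveI hUn : U.Normal := ⟨fun a ha g => ⟨hMn.conj_mem a ha.1 g, by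
    rw [conj_pow, ha.2, mul_one, mul_inv_cancel]⟩⟩
  have hUb : U ≠ ⊥ := by
    intro h
    have hmem : m ^ (orderOf m / r) ∈ U := ⟨M.pow_mem hmM _, by
      rw [← pow_mul, Nat.div_mul_cancel hrd, pow_orderOf_eq_one]⟩
    rw [h, Subgroup.mem_bot, ← orderOf_dvd_iff_pow_eq_one] at hmem
    have hlt : orderOf m / r < orderOf m := Nat.div_lt_self (orderOf_pos m) hr.one_lt
    have hpos : 0 < orderOf m / r := Nat.div_pos (Nat.le_of_dvd (orderOf_pos m) hrd) hr.pos
    exact absurd (Nat.le_of_dvd hpos hmem) (by omega)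
  have hMU : U = M := (hmin U hUn fun a ha => ha.1).resolve_left hUb
  have hMp : IsPGroup r M := fun x => ⟨1, Subtype.ext (by
    rw [pow_one]; exact (hMU.ge x.2 : (x : H) ∈ U).2)⟩
  suffices hrp : r = p by rw [← hrp]; exact hMp
  by_contra hrp
  haveI := Fact.mk hr
  -- orbits of `M` have both `r`-power and `p`-power size
  refine hMb ((Subgroup.eq_bot_iff_forall M).mpr fun x hx => hinj (DFunLike.ext _ _ fun v => ?_))
  obtain ⟨a, ha⟩ := hpp v
  obtain ⟨b, hb⟩ := IsPGroup.iff_card.mp hMp
  have h2 : (stab ρ v).relIndex M ∣ p ^ a := by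
    rw [← ha]
    exact relIndex_dvd_of_normal (stab ρ v) M
  have h3 : (stab ρ v).relIndex M ∣ r ^ b := by
    rw [← hb]; exact Subgroup.index_dvd_card _
  have h4 := Nat.eq_one_of_dvd_coprimes
    (((Nat.coprime_primes hr Fact.out).mpr hrp).pow b a) h3 h2
  rw [Subgroup.relIndex_eq_one] at h4
  rw [one_apply]
  exact h4 hx

end CfsgLib.Frobenius.PPower
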