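import Cfsg.Agent.Lib.Frobenius.PPowerBlocks
import Mathlib.Algebra.Ring.Subring.Basic
import Mathlib.RingTheory.LittleWedderburn

/-!
# Coprime linear groups with orbits of two-power size: a Sylow subgroup with an inverted cyclic half
-/

set_option autoImplicit false
set_option linter.unusedSectionVars false
set_option linter.style.haveILetI false
set_option maxHeartbeats 1000000

universe u

namespace CfsgLib.Frobenius.PPower

open Subgroup Polynomial

variable {V : Type u} [AddCommGroup V] [Finite V] {H : Type u} [Group H] [Finite H]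
  {ρ : H →* AddMonoid.End V}

theorem exists_ker_of_pow_card_eq {K R : Type*} [Field K] [Fintype K] [CommRing R] (ι : K →+* R)
    (φ : R →+* AddMonoid.End V) [Nontrivial V] {z : R} (hz : z ^ Fintype.card K = z) :
    ∃ a : K, ∃ v : V, v ≠ 0 ∧ φ (z - ι a) v = 0 := by
  classical
  have hm : (X ^ Fintype.card K - X : K[X]).Monic :=
    (monic_X_pow _).sub_of_left (by
      rw [degree_X_pow, degree_X]
      exact_mod_cast Fintype.one_lt_card)
  have hr : Multiset.card (X ^ Fintype.card K - X : K[X]).roots =
      (X ^ Fintype.card K - X : K[X]).natDegree := by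
    rw [FiniteField.roots_X_pow_card_sub_X,
      FiniteField.X_pow_card_sub_X_natDegree_eq K Fintype.one_lt_card]
    rfl
  have h := prod_multiset_X_sub_C_of_monic_of_roots_card_eq hm hr
  rw [FiniteField.roots_X_pow_card_sub_X] at h
  have h0 : ∏ a : K, (z - ι a) = 0 := by
    have := congrArg (Polynomial.eval₂ ι z) h
    rw [Polynomial.eval₂_sub, Polynomial.eval₂_X_pow, Polynomial.eval₂_X, hz, sub_self] at this
    rw [← this, show (Multiset.map (fun a => X - C a) Finset.univ.val).prod =
      ∏ a : K, (X - C a) from rfl, Polynomial.eval₂_finsetProd]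
    simp
  by_contra hcon
  push Not at hcon
  have hall : ∀ s : Finset K, ∀ v : V, φ (∏ a ∈ s, (z - ι a)) v = 0 → v = 0 := by
    intro s
    induction s using Finset.induction_on with
    | empty => intro v hv; rwa [Finset.prod_empty, map_one] at hv
    | insert a s ha ih =>
      intro v hv
      rw [Finset.prod_insert ha, map_mul] at hv
      exact ih v (by_contra fun hne => hcon a _ hne hv)
  obtain ⟨v, hv⟩ := exists_ne (0 : V)
  exact hv (hall Finset.univ v (by rw [h0, map_zero]; rfl))

theorem zmod_two_cases : ∀ i : ZMod 2, i = 0 ∨ i = 1 := by decide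

theorem zmod_two_univ : (Finset.univ : Finset (ZMod 2)) = {0, 1} := by decide

theorem exists_odd_factor (q : ℕ) (hq : Odd q) : ∀ k : ℕ,
    ∃ S : ℤ, Odd S ∧ ((q : ℤ) ^ (2 * k + 1) + 1) = ((q : ℤ) + 1) * S
  | 0 => ⟨1, odd_one, by ring⟩
  | k + 1 => by
    obtain ⟨S, hS, h⟩ := exists_odd_factor q hq k
    refine ⟨(q : ℤ) ^ 2 * S - ((q : ℤ) - 1), ?_, by
      rw [show 2 * (k + 1) + 1 = (2 * k + 1) + 2 by ring, pow_add]
      linear_combination ((q : ℤ) ^ 2) * h⟩
    have hqz : Odd (q : ℤ) := (Int.odd_coe_nat q).mpr hq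
    exact ((hqz.pow).mul hS).sub_even (hqz.sub_odd odd_one)

theorem pow_two_dvd_succ {q e n : ℕ} (hq : Odd q) (hn : 1 ≤ n) (h : 2 ^ (n + 1) ∣ q ^ e + 1) :
    2 ^ (n + 1) ∣ q + 1 := by
  rcases Nat.even_or_odd e with ⟨k, rfl⟩ | ⟨k, rfl⟩
  · exfalso
    have h4 : 4 ∣ q ^ (k + k) + 1 :=
      (show 2 ^ 2 ∣ 2 ^ (n + 1) from pow_dvd_pow 2 (by omega)).trans h
    obtain ⟨c, hc⟩ := hq.pow (n := k)
    rw [pow_add, hc] at h4
    obtain ⟨d, hd⟩ := h4
    ring_nf at hd
    omega
  · obtain ⟨S, hS, hS'⟩ := exists_odd_factor q hq k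
    have h1 : ((2 : ℤ) ^ (n + 1)) ∣ ((q : ℤ) + 1) * S := by
      rw [← hS']; exact_mod_cast h
    have h2 : IsCoprime ((2 : ℤ) ^ (n + 1)) S := by
      refine IsCoprime.pow_left ?_
      obtain ⟨t, rfl⟩ := hS
      exact ⟨-t, 1, by ring⟩
    exact_mod_cast h2.dvd_of_dvd_mul_right h1

/-- A Sylow `2`-subgroup which has a cyclic subgroup of index two inverted by an element squaring
to minus the identity is the whole perfect group. -/
theorem eq_top_of_inverted {q : ℕ} [hqp : Fact q.Prime] [Nontrivial V] (hinj : Function.Injective ρ)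
    (hcop : (Nat.card H).Coprime q) (hq : ∀ v : V, q • v = 0) (hqo : Odd q) (hpp : PPow ρ 2)
    (hperf : commutator H = ⊤) (P : Sylow 2 H) (hirr : Irred ρ (P : Subgroup H)) {x y : H}
    (hx : x ∈ (P : Subgroup H)) (hy : y ∈ (P : Subgroup H)) {n : ℕ} (hn : 1 ≤ n)
    (hxo : orderOf x = 2 ^ (n + 1))
    (hgen : ∀ g ∈ (P : Subgroup H), ∃ i : ℕ, g = x ^ i ∨ g = x ^ i * y)
    (hyx : y * x = x⁻¹ * y) (hy2 : ∀ v : V, ρ (y * y) v = -v) : (P : Subgroup H) = ⊤ := by
  classical
  haveI : Fact (Nat.Prime 2) := ⟨Nat.prime_two⟩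
  set X : AddMonoid.End V := ρ x with hX
  set X' : AddMonoid.End V := ρ x⁻¹ with hX'
  set Y : AddMonoid.End V := ρ y with hY
  have hXX' : X * X' = 1 := by rw [hX, hX', ← map_mul, mul_inv_cancel, map_one]
  have hX'X : X' * X = 1 := by rw [hX, hX', ← map_mul, inv_mul_cancel, map_one]
  have hYX : Y * X = X' * Y := by rw [hX, hX', hY, ← map_mul, ← map_mul, hyx]
  have hYX' : Y * X' = X * Y := by
    have : y * x⁻¹ = x * y := by
      calc y * x⁻¹ = x * (x⁻¹ * y) * x⁻¹ := by group
        _ = x * (y * x) * x⁻¹ := by rw [hyx]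
        _ = x * y := by group
    rw [hX, hX', hY, ← map_mul, ← map_mul, this]
  have hYY : Y * Y = -1 := by
    refine DFunLike.ext _ _ fun v => ?_
    show ρ y (ρ y v) = -v
    rw [← mul_apply]; exact hy2 v
  have hxne : X ≠ X' := by
    intro h
    have h2 : x * x = 1 := hinj (by rw [map_mul, map_one, ← hX]; nth_rw 2 [h]; exact hXX')
    have := orderOf_dvd_of_pow_eq_one (show x ^ 2 = 1 by rw [pow_two, h2])
    rw [hxo] at this
    have := Nat.le_of_dvd (by norm_num) this
    have : 2 ^ 2 ≤ 2 ^ (n + 1) := Nat.pow_le_pow_right (by norm_num) (by omega)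
    omega
  -- invariance under `P`
  have hinv : ∀ W : AddSubgroup V, (∀ w ∈ W, ρ x w ∈ W) → (∀ w ∈ W, ρ y w ∈ W) → W = ⊥ ∨ W = ⊤ := by
    intro W h1 h2
    refine hirr W fun g hg w hw => ?_
    have hi : ∀ i : ℕ, ∀ w ∈ W, ρ (x ^ i) w ∈ W := by
      intro i
      induction i with
      | zero => intro w hw; rwa [pow_zero, one_apply]
      | succ i ih => intro w hw; rw [pow_succ, mul_apply]; exact ih _ (h1 w hw)
    obtain ⟨i, rfl | rfl⟩ := hgen g hg
    · exact hi i w hw
    · rw [mul_apply]; exact hi i _ (h2 w hw)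
  -- the commutative ring
  let C := Subring.closure ({X, X'} : Set (AddMonoid.End V))
  letI : CommRing C := Subring.closureCommRingOfComm (fun a ha b hb => by
    rcases ha with rfl | rfl <;> rcases hb with rfl | rfl
    · rfl
    · rw [hXX', hX'X]
    · rw [hXX', hX'X]
    · rfl)
  let cX : C := ⟨X, Subring.subset_closure (Or.inl rfl)⟩
  let cX' : C := ⟨X', Subring.subset_closure (Or.inr rfl)⟩
  have hc1 : cX * cX' = 1 := Subtype.ext hXX'
  let φ : C →+* AddMonoid.End V := C.subtype
  have hφinj : Function.Injective φ := Subtype.val_injective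
  haveI : Nontrivial C := by
    refine ⟨0, 1, fun h => ?_⟩
    obtain ⟨v, hv⟩ := exists_ne (0 : V)
    exact hv (DFunLike.congr_fun (congrArg φ h) v).symm
  have hqC : ((q : ℕ) : C) = 0 := by
    refine hφinj ?_
    rw [map_natCast, map_zero]
    exact DFunLike.ext _ _ fun v => by rw [AddMonoid.End.natCast_apply]; exact hq v
  haveI : CharP C q := (CharP.charP_iff_prime_eq_zero hqp.out).mpr hqC
  -- the field generated by the trace
  let E := Subring.closure ({cX + cX'} : Set C)
  have hcomm : ∀ r ∈ E, Commute Y (φ r) := by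
    intro r hr
    induction hr using Subring.closure_induction with
    | mem r hr =>
      rw [Set.mem_singleton_iff] at hr
      subst hr
      show Y * (X + X') = (X + X') * Y
      rw [mul_add, add_mul, hYX, hYX', add_comm]
    | zero => rw [map_zero]; exact Commute.zero_right _
    | one => rw [map_one]; exact Commute.one_right _
    | add a b _ _ ha hb => rw [map_add]; exact ha.add_right hb
    | neg a _ ha => rw [map_neg]; exact ha.neg_right
    | mul a b _ _ ha hb => rw [map_mul]; exact ha.mul_right hb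
  have hcommX : ∀ r : C, X * φ r = φ r * X := fun r => congrArg φ (mul_comm cX r)
  have hEinj : ∀ r ∈ E, r ≠ 0 → ∀ v : V, φ r v = 0 → v = 0 := by
    intro r hr hr0 v hv
    rcases hinv (AddMonoidHom.ker (φ r : V →+ V))  (fun w hw => by
        show (φ r * X) w = 0
        rw [← hcommX]
        show X (φ r w) = 0
        rw [show φ r w = 0 from hw, map_zero]) (fun w hw => by
        show (φ r * Y) w = 0
        rw [← (hcomm r hr).eq]
        show Y (φ r w) = 0
        rw [show φ r w = 0 from hw, map_zero]) with h | h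
    · exact (AddSubgroup.mem_bot).mp (h ▸ (show v ∈ AddMonoidHom.ker (φ r : V →+ V) from hv))
    · exfalso
      refine hr0 (hφinj (DFunLike.ext _ _ fun w => ?_))
      rw [map_zero]
      exact (show w ∈ AddMonoidHom.ker (φ r : V →+ V) from h ▸ AddSubgroup.mem_top w)
  haveI : IsDomain E := by
    haveI : NoZeroDivisors E := ⟨fun {a b} hab => by
      by_contra hcon
      push Not at hcon
      obtain ⟨v, hv⟩ := exists_ne (0 : V)
      refine hv (hEinj b b.2 (fun h => hcon.2 (Subtype.ext h)) v
        (hEinj a a.2 (fun h => hcon.1 (Subtype.ext h)) _ ?_))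
      show (φ a * φ b) v = 0
      rw [← map_mul, show ((a : C) * b) = 0 from congrArg Subtype.val hab, map_zero]
      rfl⟩
    exact NoZeroDivisors.to_isDomain E
  haveI : Finite (AddMonoid.End V) := Finite.of_injective (fun f : AddMonoid.End V => (f : V → V))
    DFunLike.coe_injective
  letI := Fintype.ofFinite E
  letI : Field E := Fintype.fieldOfDomain E
  haveI : CharP E q := (CharP.charP_iff_prime_eq_zero hqp.out).mpr (Subtype.ext (by
    rw [Subring.coe_zero, ← hqC]; exact map_natCast E.subtype q))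
  obtain ⟨⟨e, he⟩, -, hcardE⟩ := FiniteField.card E q
  set Q := Fintype.card E with hQ
  rw [PNat.mk_coe] at hcardE
  let ι : E →+* C := E.subtype
  let cT : E := ⟨cX + cX', Subring.subset_closure rfl⟩
  have hTQ : (cX + cX') ^ Q = cX + cX' := congrArg Subtype.val (FiniteField.pow_card cT)
  -- the Frobenius power of `X`
  have hsplit : cX ^ Q = cX ∨ cX ^ Q = cX' := by
    have hQT : cX ^ Q + cX' ^ Q = cX + cX' := by
      rw [hcardE] at hTQ ⊢
      rwa [add_pow_char_pow] at hTQ
    have hp1 : cX ^ Q * cX' ^ Q = 1 := by rw [← mul_pow, hc1, one_pow]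
    have hAB : (cX ^ Q - cX') * (cX ^ Q - cX) = 0 := by
      linear_combination hc1 - hp1 + cX ^ Q * hQT
    rcases hinv (AddMonoidHom.ker (φ (cX ^ Q - cX) : V →+ V))  (fun w hw => by
        show (φ (cX ^ Q - cX) * X) w = 0
        rw [← hcommX]
        show X (φ (cX ^ Q - cX) w) = 0
        rw [show φ (cX ^ Q - cX) w = 0 from hw, map_zero]) (fun w hw => by
        show (φ (cX ^ Q - cX) * Y) w = 0
        have hYp : ∀ m : ℕ, Y * X' ^ m = X ^ m * Y := by
          intro m
          induction m with
          | zero => simp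
          | succ m ih => rw [pow_succ, ← mul_assoc, ih, mul_assoc, hYX', ← mul_assoc, ← pow_succ]
        have e1 : φ (cX ^ Q - cX) * Y = Y * φ (cX' ^ Q - cX') := by
          rw [map_sub, map_sub, map_pow, map_pow, sub_mul, mul_sub]
          show X ^ Q * Y - X * Y = Y * X' ^ Q - Y * X'
          rw [hYp, hYX']
        have e2 : cX' ^ Q - cX' = -(cX' * cX' ^ Q) * (cX ^ Q - cX) := by
          linear_combination cX' * hp1 - cX' ^ Q * hc1
        rw [e1, e2, map_mul]
        show Y (φ (-(cX' * cX' ^ Q)) (φ (cX ^ Q - cX) w)) = 0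
        rw [show φ (cX ^ Q - cX) w = 0 from hw, map_zero, map_zero]) with h | h
    · right
      refine sub_eq_zero.mp (hφinj (DFunLike.ext _ _ fun w => ?_))
      rw [map_zero]
      have hw : φ (cX ^ Q - cX') w ∈ AddMonoidHom.ker (φ (cX ^ Q - cX) : V →+ V) := by
        show (φ (cX ^ Q - cX) * φ (cX ^ Q - cX')) w = 0
        rw [← map_mul, mul_comm, hAB, map_zero]
        rfl
      rw [h] at hw
      exact AddSubgroup.mem_bot.mp hw
    · left
      refine sub_eq_zero.mp (hφinj (DFunLike.ext _ _ fun w => ?_))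
      rw [map_zero]
      exact (show w ∈ AddMonoidHom.ker (φ (cX ^ Q - cX) : V →+ V) from h ▸ AddSubgroup.mem_top w)
  rcases hsplit with hfix | hflip
  · -- two blocks
    exfalso
    obtain ⟨l, v, hv0, hv⟩ := exists_ker_of_pow_card_eq ι φ (z := cX) hfix
    have hroot : ι l * (cX + cX' - ι l) = 1 := by
      by_contra hne
      refine hv0 (hEinj _ (E.sub_mem (E.mul_mem l.2 (E.sub_mem cT.2 l.2)) E.one_mem)
        (sub_ne_zero.mpr hne) v ?_)
      have e1 : ι l * (cX + cX' - ι l) - 1 = (ι l * 1 - cX') * (cX - ι l) := by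
        linear_combination hc1
      show φ (ι l * (cX + cX' - ι l) - 1) v = 0
      rw [e1, map_mul]
      show φ (ι l * 1 - cX') (φ (cX - ι l) v) = 0
      rw [hv, map_zero]
    let l' : E := cT - l
    have hl' : ι l' = cX + cX' - ι l := map_sub ι cT l
    let W0 := AddMonoidHom.ker (φ (cX - ι l) : V →+ V)
    let W1 := AddMonoidHom.ker (φ (cX - ι l') : V →+ V)
    have hY01 : ∀ a b : E, ι a + ι b = cX + cX' → ∀ w, φ (cX - ι a) w = 0 →
        φ (cX - ι b) (Y w) = 0 := by
      intro a b hab w hw
      have e1 : φ (cX - ι b) * Y = Y * φ (cX' - ι b) := by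
        rw [map_sub, map_sub, sub_mul, mul_sub]
        show X * Y - φ (ι b) * Y = Y * X' - Y * φ (ι b)
        rw [hYX', show Y * φ (ι b) = φ (ι b) * Y from (hcomm _ b.2).eq]
      show (φ (cX - ι b) * Y) w = 0
      rw [e1, show cX' - ι b = -(cX - ι a) by linear_combination -hab, map_neg]
      show Y (-(φ (cX - ι a) w)) = 0
      rw [hw, neg_zero, map_zero]
    have hX01 : ∀ a : E, ∀ w, φ (cX - ι a) w = 0 → φ (cX - ι a) (X w) = 0 := by
      intro a w hw
      show (φ (cX - ι a) * X) w = 0
      rw [← hcommX]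
      show X (φ (cX - ι a) w) = 0
      rw [hw, map_zero]
    have h01 : ι l + ι l' = cX + cX' := by rw [hl']; ring
    have h10 : ι l' + ι l = cX + cX' := by rw [hl']; ring
    have hne0 : W0 ≠ ⊥ := fun h => hv0 (AddSubgroup.mem_bot.mp (h ▸ (show v ∈ W0 from hv)))
    have hne : l ≠ l' := by
      intro hll
      rcases hinv W0 (fun w hw => hX01 l w hw) (fun w hw => by
        have := hY01 l l' h01 w hw; rwa [← hll] at this) with h | h
      · exact hne0 h
      · have hXl : X = φ (ι l) := DFunLike.ext _ _ fun w => by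
          have : φ (cX - ι l) w = 0 := h.ge (AddSubgroup.mem_top w)
          rw [map_sub] at this
          exact sub_eq_zero.mp this
        apply hxne
        have : Y * φ (ι l) = φ (ι l) * Y := (hcomm _ l.2).eq
        rw [← hXl, hYX] at this
        calc X = X * (Y * Y) * (-1) := by rw [hYY, mul_assoc, neg_mul_neg, one_mul, mul_one]
          _ = (X * Y) * Y * (-1) := by rw [mul_assoc X Y Y]
          _ = X' * (Y * Y) * (-1) := by rw [← this, mul_assoc X' Y Y]
          _ = X' := by rw [hYY, mul_assoc, neg_mul_neg, one_mul, mul_one]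
    have hdis : ∀ w, w ∈ W0 → w ∈ W1 → w = 0 := by
      intro w h0 h1
      refine hEinj _ (l' - l : E).2 (fun h => hne (sub_eq_zero.mp (Subtype.ext h)).symm) w ?_
      show φ (ι (l' - l)) w = 0
      rw [map_sub, show ι l' - ι l = (cX - ι l) - (cX - ι l') by ring, map_sub]
      show φ (cX - ι l) w - φ (cX - ι l') w = 0
      rw [show φ (cX - ι l) w = 0 from h0, show φ (cX - ι l') w = 0 from h1, sub_zero]
    have hXsup : ∀ w ∈ W0 ⊔ W1, ρ x w ∈ W0 ⊔ W1 := by
      intro w hw
      obtain ⟨a, ha, b, hb, rfl⟩ := AddSubgroup.mem_sup.mp hw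
      rw [map_add]
      exact add_mem (AddSubgroup.mem_sup_left (hX01 l a ha)) (AddSubgroup.mem_sup_right (hX01 l' b hb))
    have hYsup : ∀ w ∈ W0 ⊔ W1, ρ y w ∈ W0 ⊔ W1 := by
      intro w hw
      obtain ⟨a, ha, b, hb, rfl⟩ := AddSubgroup.mem_sup.mp hw
      rw [map_add]
      exact add_mem (AddSubgroup.mem_sup_right (hY01 l l' h01 a ha))
        (AddSubgroup.mem_sup_left (hY01 l' l h10 b hb))
    have htop : W0 ⊔ W1 = ⊤ := (hinv _ hXsup hYsup).resolve_left
      fun h => hne0 (le_bot_iff.mp (h ▸ le_sup_left))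
    have hne1 : W1 ≠ ⊥ := by
      intro h
      obtain ⟨w, hw, hw0⟩ := (W0.bot_or_exists_ne_zero).resolve_left hne0
      have : Y w ∈ W1 := hY01 l l' h01 w hw
      rw [h, AddSubgroup.mem_bot] at this
      exact hw0 (apply_injective ρ y (this.trans (map_zero _).symm))
    let W : ZMod 2 → AddSubgroup V := fun i => if i = 0 then W0 else W1
    have hz : ∀ i : ZMod 2, i = 0 ∨ i = 1 := zmod_two_cases
    have e0 : W 0 = W0 := if_pos rfl
    have e1 : W 1 = W1 := if_neg one_ne_zero
    have hu : (Finset.univ : Finset (ZMod 2)) = {0, 1} := zmod_two_univ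
    refine no_blocks hpp hperf P hirr W (fun i => ?_) (fun u => ?_) (fun f hf hsum i => ?_)
      (fun g hg => ?_) ?_
    · rcases hz i with rfl | rfl
      · rwa [e0]
      · rwa [e1]
    · obtain ⟨a, ha, b, hb, rfl⟩ := AddSubgroup.mem_sup.mp (htop.ge (AddSubgroup.mem_top u))
      refine ⟨fun i => if i = 0 then a else b, fun i => ?_, by rw [hu]; simp⟩
      rcases hz i with rfl | rfl
      · simpa [e0] using ha
      · simpa [e1] using hb
    · rw [hu, Finset.sum_pair zero_ne_one] at hsum
      have h0 : f 0 = 0 := hdis _ (e0 ▸ hf 0) (by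
        rw [show f 0 = -f 1 from eq_neg_of_add_eq_zero_left hsum]
        exact neg_mem (e1 ▸ hf 1))
      rcases hz i with rfl | rfl
      · exact h0
      · rwa [h0, zero_add] at hsum
    · have hi : ∀ (m : ℕ) (i : ZMod 2), ∀ w ∈ W i, ρ (x ^ m) w ∈ W i := by
        intro m
        induction m with
        | zero => intro i w hw; rwa [pow_zero, one_apply]
        | succ m ih =>
          intro i w hw
          rw [pow_succ, mul_apply]
          refine ih i _ ?_
          rcases hz i with rfl | rfl
          · rw [e0] at hw ⊢; exact hX01 l w hw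
          · rw [e1] at hw ⊢; exact hX01 l' w hw
      obtain ⟨m, rfl | rfl⟩ := hgen g hg
      · exact ⟨0, fun i w hw => by rw [add_zero]; exact hi m i w hw⟩
      · refine ⟨1, fun i w hw => ?_⟩
        rw [mul_apply]
        refine hi m _ _ ?_
        rcases hz i with rfl | rfl
        · rw [zero_add, e1]; rw [e0] at hw; exact hY01 l l' h01 w hw
        · rw [show (1 : ZMod 2) + 1 = 0 from rfl, e0]; rw [e1] at hw; exact hY01 l' l h10 w hw
    · rw [e0]
      intro h
      exact hne1 ((AddSubgroup.eq_bot_iff_forall _).mpr fun w hw => hdis w (h.ge (AddSubgroup.mem_top w)) hw)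
  · -- the trace is a scalar
    have hQe : Q = q ^ e := hcardE
    have hxQ : x ^ (Q + 1) = 1 := hinj (by
      have := congrArg φ hflip
      rw [map_pow] at this
      rw [pow_succ, map_mul, map_pow, map_one, ← hX, show X ^ Q = X' from this, hX'X])
    have hdvd : 2 ^ (n + 1) ∣ q + 1 :=
      pow_two_dvd_succ hqo hn (e := e) (by rw [← hxo, ← hQe]; exact orderOf_dvd_of_pow_eq_one hxQ)
    have hxq : cX ^ q = cX' := by
      refine hφinj ?_
      rw [map_pow]
      show X ^ q = X'
      rw [hX, hX', ← map_pow]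
      congr 1
      rw [← mul_inv_eq_one, inv_inv, ← pow_succ, ← orderOf_dvd_iff_pow_eq_one, hxo]
      exact hdvd
    have hTq : (cX + cX') ^ q = cX + cX' := by
      rw [add_pow_char, hxq]
      have : cX' ^ q = cX := by
        have h1 : cX ^ q * cX' ^ q = 1 := by rw [← mul_pow, hc1, one_pow]
        rw [hxq] at h1
        linear_combination cX * h1 - cX' ^ q * hc1
      rw [this, add_comm]
    obtain ⟨c, v0, hv0, hc⟩ := exists_ker_of_pow_card_eq (ZMod.castHom dvd_rfl C) φ
      (z := cX + cX') (by rwa [ZMod.card])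
    have hT : cX + cX' = ((c.val : ℕ) : C) := by
      by_contra hne
      refine hv0 (hEinj _ (E.sub_mem cT.2 (natCast_mem E c.val)) (sub_ne_zero.mpr hne) v0 ?_)
      rwa [ZMod.castHom_apply, ZMod.cast_eq_val] at hc
    have hXsq : cX * cX = ((c.val : ℕ) : C) * cX - 1 := by
      rw [← hT]; linear_combination -hc1
    -- a zero divisor
    obtain ⟨a, b, hab⟩ : ∃ a b : ZMod q, a ^ 2 + c * a * b + b ^ 2 = -1 := by
      have h2 : (2 : ZMod q) ≠ 0 := by
        intro h
        have : ((2 : ℕ) : ZMod q) = 0 := by exact_mod_cast h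
        rw [ZMod.natCast_eq_zero_iff] at this
        have := (Nat.prime_dvd_prime_iff_eq hqp.out Nat.prime_two).mp this
        obtain ⟨k, hk⟩ := hqo
        omega
      have hc4 : 1 - c ^ 2 / 4 ≠ 0 := by
        intro h4
        have hc2 : c ^ 2 = 4 := by
          have h44 : (4 : ZMod q) ≠ 0 := by
            rw [show (4 : ZMod q) = 2 * 2 by norm_num]; exact mul_ne_zero h2 h2
          field_simp at h4
          linear_combination -h4
        have hD : (cX - cX') ^ 2 = 0 := by
          have e : ((c.val : ℕ) : C) ^ 2 = 4 := by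
            have := congrArg (ZMod.castHom dvd_rfl C) hc2
            rw [map_pow, map_ofNat, ZMod.castHom_apply, ZMod.cast_eq_val] at this
            exact this
          rw [← hT] at e
          linear_combination e - 4 * hc1
        have hDq : (cX - cX') ^ q = 0 :=
          pow_eq_zero_of_le hqp.out.two_le hD
        rw [sub_pow_char, sub_eq_zero] at hDq
        apply hxne
        have h2q : x ^ q * x ^ q = 1 := hinj (by
          have := congrArg φ hDq
          rw [map_pow, map_pow] at this
          rw [map_mul, map_one, map_pow, ← hX]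
          nth_rw 2 [show X ^ q = X' ^ q from this]
          rw [← Commute.mul_pow (show Commute X X' by rw [Commute, SemiconjBy, hXX', hX'X]), hXX',
            one_pow])
        have hd2 : orderOf x ∣ 2 * q := orderOf_dvd_of_pow_eq_one (by rw [two_mul, pow_add, h2q])
        have hx2 : x ^ 2 = 1 := by
          rw [← orderOf_dvd_iff_pow_eq_one]
          refine Nat.Coprime.dvd_of_dvd_mul_right ?_ hd2
          rw [hxo]
          exact Nat.Coprime.pow_left _ (Nat.coprime_two_left.mpr hqo)
        show ρ x = ρ x⁻¹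
        rw [← mul_eq_one_iff_eq_inv.mp (by rw [← pow_two]; exact hx2)]
      obtain ⟨s, t, hst⟩ := FiniteField.exists_root_sum_quadratic (R := ZMod q)
        (f := Polynomial.C 1 * Polynomial.X ^ 2 + Polynomial.C 0 * Polynomial.X + Polynomial.C 1)
        (g := Polynomial.C (1 - c ^ 2 / 4) * Polynomial.X ^ 2 + Polynomial.C 0 * Polynomial.X + Polynomial.C 0)
        (degree_quadratic one_ne_zero) (degree_quadratic hc4)
        (by rw [ZMod.card]; exact Nat.odd_iff.mp hqo)
      refine ⟨s - c * t / 2, t, ?_⟩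
      simp at hst
      have h4 : (4 : ZMod q)⁻¹ = 2⁻¹ * 2⁻¹ := by rw [← mul_inv]; norm_num
      rw [div_eq_mul_inv, h4] at hst
      rw [div_eq_mul_inv]
      linear_combination hst + (-(c * t * s) + c ^ 2 * t ^ 2 * 2⁻¹) * (mul_inv_cancel₀ h2)
    let Z : C := ((a.val : ℕ) : C) + ((b.val : ℕ) : C) * cX
    let Z' : C := ((a.val : ℕ) : C) + ((b.val : ℕ) : C) * cX'
    have hZZ : Z * Z' = -1 := by
      have e := congrArg (ZMod.castHom dvd_rfl C) hab
      simp only [map_add, map_mul, map_pow, map_neg, map_one, ZMod.castHom_apply,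
        ZMod.cast_eq_val] at e
      rw [← hT] at e
      linear_combination e + ((b.val : ℕ) : C) ^ 2 * hc1
    have hYZ' : Y * φ Z' = φ Z * Y := by
      simp only [Z, Z', map_add, map_mul, map_natCast]
      rw [mul_add, add_mul, ← mul_assoc, ← (Nat.cast_commute b.val Y).eq,
        (Nat.cast_commute a.val Y).eq, mul_assoc, mul_assoc,
        show Y * φ cX' = φ cX * Y from hYX']
    obtain ⟨u, hu⟩ : ∃ u : V, (Y + φ Z') u ≠ 0 := by
      by_contra hcon
      push Not at hcon
      apply hxne
      have hYZ : Y = φ (-Z') := DFunLike.ext _ _ fun w => by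
        rw [map_neg]; exact eq_neg_of_add_eq_zero_left (hcon w)
      have hc : X * Y = Y * X := by rw [hYZ]; exact hcommX _
      rw [hYX] at hc
      calc X = X * (Y * Y) * (-1) := by rw [hYY, mul_assoc, neg_mul_neg, one_mul, mul_one]
        _ = (X * Y) * Y * (-1) := by rw [mul_assoc X Y Y]
        _ = X' * (Y * Y) * (-1) := by rw [hc, mul_assoc X' Y Y]
        _ = X' := by rw [hYY, mul_assoc, neg_mul_neg, one_mul, mul_one]
    set v := (Y + φ Z') u with hv
    have hYv : Y v = φ Z v := by
      have : (Y - φ Z) * (Y + φ Z') = 0 := by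
        rw [sub_mul, mul_add, mul_add, hYY, hYZ', ← map_mul, hZZ, map_neg, map_one]
        abel
      exact sub_eq_zero.mp (DFunLike.congr_fun this u)
    set U := AddSubgroup.closure ({v, X v} : Set V)
    have hmemv : v ∈ U := AddSubgroup.subset_closure (Or.inl rfl)
    have hmemX : X v ∈ U := AddSubgroup.subset_closure (Or.inr rfl)
    have hXXv : X (X v) ∈ U := by
      show (φ cX * φ cX) v ∈ U
      rw [← map_mul, hXsq, map_sub, map_mul, map_natCast, map_one]
      show ((c.val : ℕ) : AddMonoid.End V) (X v) - v ∈ U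
      rw [AddMonoid.End.natCast_apply]
      exact sub_mem (nsmul_mem hmemX _) hmemv
    have hUX : ∀ w ∈ U, X w ∈ U := by
      intro w hw
      induction hw using AddSubgroup.closure_induction with
      | mem w hw =>
        rcases hw with rfl | rfl
        · exact hmemX
        · exact hXXv
      | zero => rw [map_zero]; exact U.zero_mem
      | add s t _ _ hs ht => rw [map_add]; exact add_mem hs ht
      | neg s _ hs => rw [map_neg]; exact neg_mem hs
    have hX'v : X' v ∈ U := by
      have : φ cX' v = φ (((c.val : ℕ) : C) - cX) v := by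
        rw [show ((c.val : ℕ) : C) - cX = cX' by rw [← hT]; ring]
      rw [map_sub, map_natCast] at this
      show φ cX' v ∈ U
      rw [this]
      show ((c.val : ℕ) : AddMonoid.End V) v - X v ∈ U
      rw [AddMonoid.End.natCast_apply]
      exact sub_mem (nsmul_mem hmemv _) hmemX
    have hX'U : ∀ w ∈ U, X' w ∈ U := by
      intro w hw
      induction hw using AddSubgroup.closure_induction with
      | mem w hw =>
        rcases hw with rfl | rfl
        · exact hX'v
        · show (X' * X) v ∈ U
          rw [hX'X]; exact hmemv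
      | zero => rw [map_zero]; exact U.zero_mem
      | add s t _ _ hs ht => rw [map_add]; exact add_mem hs ht
      | neg s _ hs => rw [map_neg]; exact neg_mem hs
    have hYvU : Y v ∈ U := by
      rw [hYv]
      simp only [Z, map_add, map_mul, map_natCast]
      show ((a.val : ℕ) : AddMonoid.End V) v + ((b.val : ℕ) : AddMonoid.End V) (X v) ∈ U
      rw [AddMonoid.End.natCast_apply, AddMonoid.End.natCast_apply]
      exact add_mem (nsmul_mem hmemv _) (nsmul_mem hmemX _)
    have hUY : ∀ w ∈ U, Y w ∈ U := by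
      intro w hw
      induction hw using AddSubgroup.closure_induction with
      | mem w hw =>
        rcases hw with rfl | rfl
        · exact hYvU
        · show (Y * X) v ∈ U
          rw [hYX]; exact hX'U _ hYvU
      | zero => rw [map_zero]; exact U.zero_mem
      | add s t _ _ hs ht => rw [map_add]; exact add_mem hs ht
      | neg s _ hs => rw [map_neg]; exact neg_mem hs
    have hUtop : U = ⊤ := (hinv U hUX hUY).resolve_left
      fun h => hu (AddSubgroup.mem_bot.mp (h ▸ hmemv))
    refine eq_top_of_plane hinj hcop hq hpp hperf P v (X v) fun w => ?_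
    obtain ⟨i, j, hij⟩ := AddSubgroup.mem_closure_pair.mp (hUtop.ge (AddSubgroup.mem_top w))
    have hnn : ∀ (i : ℤ) (z : V), i • z = (i % (q : ℤ)).toNat • z := by
      intro i z
      conv_lhs => rw [← Int.emod_add_mul_ediv i (q : ℤ)]
      rw [add_zsmul, mul_comm, mul_zsmul, natCast_zsmul, hq, zsmul_zero, add_zero,
        ← natCast_zsmul, Int.toNat_of_nonneg (Int.emod_nonneg _ (by exact_mod_cast hqp.out.ne_zero))]
    exact ⟨_, _, by rw [← hij, hnn i, hnn j]⟩

end CfsgLib.Frobenius.PPower
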